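import Mathlib
import Cfsg.Agent.H65.BSolv
import Cfsg.Agent.Frob.Complement
import Cfsg.Agent.Solv.MinNormal
import Cfsg.Agent.Solv.Core
import Cfsg.Agent.H67.SZ

set_option autoImplicit false

/-! Groups in which all subgroups of the same order are conjugate: reductions. -/

namespace Cfsg.Agent.H14.BC

open Subgroup Cfsg.Agent.H65

universe u

/-- all subgroups of the same order are conjugate -/
def CP (G : Type*) [Group G] : Prop :=
  ∀ A B : Subgroup G, Nat.card A = Nat.card B → ∃ g : G, B = A.map (MulAut.conj g).toMonoidHom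

theorem card_map_mk {G : Type*} [Group G] [Finite G] (N : Subgroup G) [N.Normal] (A : Subgroup G) :
    Nat.card (A.map (QuotientGroup.mk' N)) * Nat.card (N ⊓ A : Subgroup G) = Nat.card A := by
  have h3 := Subgroup.relIndex_ker (K := A) (QuotientGroup.mk' N)
  rw [QuotientGroup.ker_mk'] at h3
  rw [← h3, ← Subgroup.inf_relIndex_right N A, mul_comm]
  have h2 : Nat.card (N ⊓ A : Subgroup G) * (N ⊓ A).relIndex A = Nat.card A := by
    rw [← Subgroup.relIndex_bot_left (N ⊓ A), Subgroup.relIndex_mul_relIndex _ _ _ bot_le inf_le_right, Subgroup.relIndex_bot_left]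
  exact h2

/-- lifting a conjugation from the quotient -/
theorem exists_conj_sup {G : Type*} [Group G] [Finite G] (N : Subgroup G) [N.Normal] (A B : Subgroup G)
    (h : ∃ g : G ⧸ N, B.map (QuotientGroup.mk' N) = (A.map (QuotientGroup.mk' N)).map (MulAut.conj g).toMonoidHom) :
    ∃ g : G, N ⊔ B = N ⊔ A.map (MulAut.conj g).toMonoidHom := by
  obtain ⟨g, hg⟩ := h
  obtain ⟨g, rfl⟩ := QuotientGroup.mk'_surjective N g
  refine ⟨g, ?_⟩
  have h1 : B.map (QuotientGroup.mk' N) = (A.map (MulAut.conj g).toMonoidHom).map (QuotientGroup.mk' N) := by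
    rw [hg, Subgroup.map_map, Subgroup.map_map]
    congr 1
  have h2 := congrArg (Subgroup.comap (QuotientGroup.mk' N)) h1
  rw [Subgroup.comap_map_eq, Subgroup.comap_map_eq, QuotientGroup.ker_mk'] at h2
  rw [sup_comm, h2, sup_comm]

open Pointwise in
theorem smul_eq_map {G : Type*} [Group G] (g : G) (H : Subgroup G) :
    (MulAut.conj g • H : Subgroup G) = H.map (MulAut.conj g).toMonoidHom := rfl

theorem map_conj_map_conj {G : Type*} [Group G] (g h : G) (H : Subgroup G) :
    (H.map (MulAut.conj g).toMonoidHom).map (MulAut.conj h).toMonoidHom = H.map (MulAut.conj (h * g)).toMonoidHom := by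
  rw [Subgroup.map_map]
  congr 1
  ext x
  simp

theorem card_map_conj {G : Type*} [Group G] (g : G) (H : Subgroup G) :
    Nat.card (H.map (MulAut.conj g).toMonoidHom) = Nat.card H :=
  Subgroup.card_map_of_injective (MulAut.conj g).injective

open Pointwise in
/-- the two basic reductions -/
theorem conj_of_quotient {G : Type*} [Group G] [Finite G] (hsol : Group.IsSolvable G) (N : Subgroup G) [N.Normal] (A B : Subgroup G)
    (hAB : Nat.card A = Nat.card B) (hcase : (N ≤ A ∧ N ≤ B) ∨ (Nat.card N).Coprime (Nat.card A))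
    (h : ∃ g : G ⧸ N, B.map (QuotientGroup.mk' N) = (A.map (QuotientGroup.mk' N)).map (MulAut.conj g).toMonoidHom) :
    ∃ g : G, B = A.map (MulAut.conj g).toMonoidHom := by
  obtain ⟨g, hg⟩ := exists_conj_sup N A B h
  rcases hcase with ⟨h1, h2⟩ | h1
  · refine ⟨g, ?_⟩
    have h3 : N ≤ A.map (MulAut.conj g).toMonoidHom := by
      intro x hx
      refine ⟨g⁻¹ * x * g, h1 ?_, ?_⟩
      · have := ‹N.Normal›.conj_mem x hx g⁻¹
        rwa [inv_inv] at this
      · change g * (g⁻¹ * x * g) * g⁻¹ = x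
        group
    rw [sup_eq_right.2 h2, sup_eq_right.2 h3] at hg
    exact hg
  · have hs : Group.IsSolvable (A.map (MulAut.conj g).toMonoidHom : Subgroup G) := inferInstance
    obtain ⟨n, -, hn⟩ := H67.conj_of_sup_eq N (A.map (MulAut.conj g).toMonoidHom) B (by rw [card_map_conj]; exact h1)
      (by rw [← hAB]; exact h1) hs hg.symm
    refine ⟨n * g, ?_⟩
    rw [← map_conj_map_conj]
    exact hn.symm

theorem card_map_eq_of {G : Type*} [Group G] [Finite G] (N : Subgroup G) [N.Normal] (A B : Subgroup G)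
    (hAB : Nat.card A = Nat.card B) (hcase : (N ≤ A ∧ N ≤ B) ∨ (Nat.card N).Coprime (Nat.card A)) :
    Nat.card (A.map (QuotientGroup.mk' N)) = Nat.card (B.map (QuotientGroup.mk' N)) := by
  have h1 := card_map_mk N A
  have h2 := card_map_mk N B
  have h3 : Nat.card (N ⊓ A : Subgroup G) = Nat.card (N ⊓ B : Subgroup G) := by
    rcases hcase with ⟨h3, h4⟩ | h3
    · rw [inf_eq_left.2 h3, inf_eq_left.2 h4]
    · have key : ∀ A : Subgroup G, (Nat.card N).Coprime (Nat.card A) → Nat.card (N ⊓ A : Subgroup G) = 1 := fun A hA =>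
        Nat.eq_one_of_dvd_coprimes hA (card_dvd_of_le inf_le_left) (card_dvd_of_le inf_le_right)
      rw [key A h3, key B (by rw [← hAB]; exact h3)]
  rw [h3, hAB, ← h2] at h1
  exact Nat.eq_of_mul_eq_mul_right Nat.card_pos h1

theorem conj_of_CP {G : Type*} [Group G] [Finite G] (hsol : Group.IsSolvable G) (N : Subgroup G) [N.Normal] (hN : CP (G ⧸ N)) (A B : Subgroup G)
    (hAB : Nat.card A = Nat.card B) (hcase : (N ≤ A ∧ N ≤ B) ∨ (Nat.card N).Coprime (Nat.card A)) :
    ∃ g : G, B = A.map (MulAut.conj g).toMonoidHom :=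
  conj_of_quotient hsol N A B hAB hcase (hN _ _ (card_map_eq_of N A B hAB hcase))

theorem card_quot_lt {G : Type*} [Group G] [Finite G] (N : Subgroup G) (hN : N ≠ ⊥) : Nat.card (G ⧸ N) < Nat.card G := by
  have h3 := N.card_mul_index
  rw [Subgroup.index_eq_card] at h3
  have h4 : 1 < Nat.card N := by
    rw [Subgroup.one_lt_card_iff_ne_bot]; exact hN
  have h5 : 0 < Nat.card (G ⧸ N) := Nat.card_pos
  rw [← h3]
  exact lt_mul_of_one_lt_left h5 h4

/-- a normal subgroup `N` of prime order `r` containing all elements of order `r` is of use in both cases -/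
theorem case_of_prime {G : Type*} [Group G] [Finite G] (N : Subgroup G) {r : ℕ} (hr : r.Prime) (hN : Nat.card N = r)
    (hall : ∀ x : G, orderOf x = r → x ∈ N) (A B : Subgroup G) (hAB : Nat.card A = Nat.card B) :
    (N ≤ A ∧ N ≤ B) ∨ (Nat.card N).Coprime (Nat.card A) := by
  have : Fact r.Prime := ⟨hr⟩
  have key : ∀ A : Subgroup G, r ∣ Nat.card A → N ≤ A := by
    intro A hA
    obtain ⟨x, hx⟩ := exists_prime_orderOf_dvd_card' r hA
    have hx' : orderOf (x : G) = r := by rw [Subgroup.orderOf_coe]; exact hx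
    have h1 : zpowers (x : G) = N := by
      apply Subgroup.eq_of_le_of_card_ge
      · rw [zpowers_le]; exact hall _ hx'
      · rw [Nat.card_zpowers, hx', hN]
    rw [← h1, zpowers_le]
    exact x.2
  by_cases h : r ∣ Nat.card A
  · exact Or.inl ⟨key A h, key B (hAB ▸ h)⟩
  · right
    rw [hN]
    exact (Nat.Prime.coprime_iff_not_dvd hr).2 h

/-- in a cyclic group of `r`-power order all elements of order `r` generate the same subgroup -/
theorem mem_of_cyclic {G : Type*} [Group G] [Finite G] (C : Subgroup G) (hC : IsCyclic C) (N : Subgroup G) (hN : N ≤ C) {r : ℕ}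
    (hNc : Nat.card N = r) (x : G) (hxC : x ∈ C) (hx : orderOf x = r) : x ∈ N := by
  have h1 := cyclic_le_of_card_dvd (C := C) (H := zpowers (⟨x, hxC⟩ : C)) (K := N.subgroupOf C) (by
    rw [Nat.card_zpowers, Subgroup.orderOf_mk, hx, Nat.card_congr (subgroupOfEquivOfLe hN).toEquiv, hNc])
  have h2 := h1 (mem_zpowers _)
  rwa [mem_subgroupOf] at h2

theorem zgroup_CP : ∀ n : ℕ, ∀ (G : Type u) [Group G] [Finite G], Nat.card G = n → IsZGroup G → CP G := by
  intro n
  induction n using Nat.strong_induction_on with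
  | _ n ih =>
    intro G _ _ hn hZ A B hAB
    have hsol : Group.IsSolvable G := inferInstance
    by_cases hG : (⊤ : Subgroup G) = ⊥
    · refine ⟨1, ?_⟩
      have : Subsingleton G := by
        rw [← Subgroup.subsingleton_iff]
        exact subsingleton_of_bot_eq_top hG.symm
      exact Subsingleton.elim _ _
    · obtain ⟨N, hNn, -, hN1, hNmin⟩ := Solv.exists_minimal_normal (⊤ : Subgroup G) inferInstance hG
      obtain ⟨hNc, r, hr, hexp⟩ := Solv.minimal_normal_of_solvable N inferInstance hN1 hNmin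
      have : Fact r.Prime := ⟨hr⟩
      have hNr : IsPGroup r N := by
        rw [isPGroup_iff_pow_pow_eq_one]
        intro x
        refine ⟨1, ?_⟩
        apply Subtype.ext
        simpa using hexp x x.2
      have hNcyc : IsCyclic N := hNr.isCyclic_of_isZGroup
      have hNcard : Nat.card N = r := by
        obtain ⟨x, hx⟩ := hNcyc.exists_generator
        have h1 : orderOf x = Nat.card N := orderOf_eq_card_of_forall_mem_zpowers hx
        have h2 : x ^ r = 1 := Subtype.ext (by simpa using hexp x x.2)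
        have h3 : orderOf x ∣ r := orderOf_dvd_of_pow_eq_one h2
        rw [h1] at h3
        rcases (Nat.dvd_prime hr).1 h3 with h4 | h4
        · exact absurd (Subgroup.card_eq_one.1 h4) hN1
        · exact h4
      have hall : ∀ x : G, orderOf x = r → x ∈ N := by
        intro x hx
        have h1 : IsPGroup r (zpowers x) := IsPGroup.of_card (n := 1) (by rw [Nat.card_zpowers, hx, pow_one])
        obtain ⟨P, hP⟩ := h1.exists_le_sylow
        have h2 : N ≤ (P : Subgroup G) := (Solv.le_pCore hNn hNr).trans (Solv.pCore_le_sylow P)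
        exact mem_of_cyclic (P : Subgroup G) inferInstance N h2 hNcard x (hP (mem_zpowers x)) hx
      exact conj_of_CP hsol N (ih _ (hn ▸ card_quot_lt N hN1) (G ⧸ N) rfl inferInstance) A B hAB
        (case_of_prime N hr hNcard hall A B hAB)

/-- stabilizers in an abelian normal subgroup of a group transitive on lines -/
theorem fpf_of_trans {K V : Type*} [Group K] [Finite K] [CommGroup V] (ρ : K →* MulAut V)
    (htr : ∀ v w : V, v ≠ 1 → w ≠ 1 → ∃ k : K, w ∈ zpowers (ρ k v))
    (M : Subgroup K) [hMn : M.Normal] (hM : ∀ a ∈ M, ∀ b ∈ M, a * b = b * a)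
    (hf : ∀ m ∈ M, (∀ v, ρ m v = v) → m = 1) : ∀ v : V, v ≠ 1 → ∀ m ∈ M, ρ m v = v → m = 1 := by
  let C : V → Subgroup K := fun v =>
    { carrier := {m | m ∈ M ∧ ρ m v = v}
      mul_mem' := by
        rintro a b ⟨ha, ha1⟩ ⟨hb, hb1⟩
        exact ⟨M.mul_mem ha hb, by rw [map_mul, MulAut.mul_apply, hb1, ha1]⟩
      one_mem' := ⟨M.one_mem, by rw [map_one]; rfl⟩
      inv_mem' := by
        rintro a ⟨ha, ha1⟩
        refine ⟨M.inv_mem ha, ?_⟩
        rw [map_inv, MulAut.inv_apply, MulEquiv.symm_apply_eq, ha1] }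
  have hC : ∀ v m, m ∈ C v ↔ m ∈ M ∧ ρ m v = v := fun v m => Iff.rfl
  have hle : ∀ v w : V, v ≠ 1 → w ≠ 1 → Nat.card (C v) ≤ Nat.card (C w) := by
    intro v w hv hw
    obtain ⟨k, hk⟩ := htr v w hv hw
    rw [← Subgroup.card_map_of_injective (K := C v) (f := (MulAut.conj k).toMonoidHom) (MulAut.conj k).injective]
    apply Nat.le_of_dvd Nat.card_pos
    apply Subgroup.card_dvd_of_le
    rintro _ ⟨m, hm, rfl⟩
    obtain ⟨hm1, hm2⟩ := (hC _ _).1 hm
    refine ⟨hMn.conj_mem m hm1 k, ?_⟩
    change ρ (k * m * k⁻¹) w = w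
    obtain ⟨i, hi⟩ := hk
    change (ρ k v) ^ i = w at hi
    rw [← hi, map_zpow]
    congr 1
    rw [map_mul, map_mul, MulAut.mul_apply, MulAut.mul_apply, map_inv, MulAut.inv_apply, MulEquiv.symm_apply_apply, hm2]
  have heq : ∀ v w : V, v ≠ 1 → w ≠ 1 → C v ≤ C w → C v = C w := fun v w hv hw h =>
    Subgroup.eq_of_le_of_card_ge h (hle w v hw hv)
  intro v hv m hm hmv
  by_contra hm1
  have hall : ∀ w : V, w ≠ 1 → C w = C v := by
    intro w hw
    by_contra hne
    have hvw : v * w ≠ 1 := by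
      intro h
      apply hne
      have : w = v⁻¹ := eq_inv_of_mul_eq_one_right h
      rw [this]
      ext x
      rw [hC, hC, map_inv, inv_inj]
    have hsub : C (v * w) ≤ C v := by
      intro x hx
      obtain ⟨hx1, hx2⟩ := (hC _ _).1 hx
      rw [map_mul] at hx2
      refine ⟨hx1, ?_⟩
      by_contra hxv
      have ha1 : (ρ x v) * v⁻¹ ≠ 1 := fun h => hxv (mul_inv_eq_one.1 h)
      have ha2 : (ρ x v) * v⁻¹ = w * (ρ x w)⁻¹ := by
        rw [mul_inv_eq_iff_eq_mul, mul_right_comm, eq_mul_inv_iff_mul_eq, hx2, mul_comm]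
      have h1 : C v ≤ C ((ρ x v) * v⁻¹) := by
        intro y hy
        obtain ⟨hy1, hy2⟩ := (hC _ _).1 hy
        refine ⟨hy1, ?_⟩
        have h2 : ρ y (ρ x v) = ρ x v := by
          rw [← MulAut.mul_apply, ← map_mul, hM y hy1 x hx1, map_mul, MulAut.mul_apply, hy2]
        rw [map_mul, map_inv, h2, hy2]
      have h2 : C w ≤ C ((ρ x v) * v⁻¹) := by
        rw [ha2]
        intro y hy
        obtain ⟨hy1, hy2⟩ := (hC _ _).1 hy
        refine ⟨hy1, ?_⟩
        have h2 : ρ y (ρ x w) = ρ x w := by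
          rw [← MulAut.mul_apply, ← map_mul, hM y hy1 x hx1, map_mul, MulAut.mul_apply, hy2]
        rw [map_mul, map_inv, h2, hy2]
      exact hne ((heq w _ hw ha1 h2).trans (heq v _ hv ha1 h1).symm)
    have hsub2 : C (v * w) ≤ C w := by
      intro x hx
      obtain ⟨hx1, hx2⟩ := (hC _ _).1 hx
      obtain ⟨-, hx3⟩ := (hC _ _).1 (hsub hx)
      refine ⟨hx1, ?_⟩
      rw [map_mul, hx3] at hx2
      exact mul_left_cancel hx2
    exact hne ((heq _ _ hvw hw hsub2).symm.trans (heq _ _ hvw hv hsub))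
  apply hm1
  apply hf m hm
  intro w
  by_cases hw : w = 1
  · rw [hw, map_one]
  · have : m ∈ C w := by rw [hall w hw]; exact ⟨hm, hmv⟩
    exact this.2

end Cfsg.Agent.H14.BC
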