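import Mathlib
import Cfsg.Agent.H14.BC1
import Cfsg.Agent.S3742

set_option autoImplicit false

/-! Structure of solvable groups with (BP) in which the relevant cores have unique subgroups of prime order. -/

namespace Cfsg.Agent.H14.BC

open Subgroup Cfsg.Agent.H65
open scoped commutatorElement

universe u

theorem exists_unique_prime {Q : Type u} [Group Q] [Finite Q] (hB : BP Q) (hsol : Group.IsSolvable Q) {ι : Type*} (V : ι → Type u)
    [∀ i, CommGroup (V i)] [∀ i, Finite (V i)] (ρ : ∀ i, Q →* MulAut (V i))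
    (htr : ∀ i (v w : V i), v ≠ 1 → w ≠ 1 → ∃ k : Q, w ∈ zpowers (ρ i k v))
    (hfaith : ∀ q : Q, (∀ i (v : V i), ρ i q v = v) → q = 1)
    {r : ℕ} (hr : r.Prime) (hcore : Cfsg.pCore r Q ≠ ⊥) :
    ∃ M : Subgroup Q, M.Normal ∧ Nat.card M = r ∧ ∀ x : Q, orderOf x = r → x ∈ M := by
  have : Fact r.Prime := ⟨hr⟩
  obtain ⟨M, hMn, hMle, hM1, hMmin⟩ := Solv.exists_minimal_normal (Cfsg.pCore r Q) inferInstance hcore
  obtain ⟨hMc, s, hs, hexp⟩ := Solv.minimal_normal_of_solvable M inferInstance hM1 hMmin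
  have hMr : IsPGroup r M := (Solv.pCore_isPGroup r).to_le hMle
  -- faithful on some `V i`
  obtain ⟨m, hm, hm1⟩ : ∃ m ∈ M, m ≠ 1 := by
    by_contra h
    push Not at h
    exact hM1 ((eq_bot_iff_forall M).2 h)
  obtain ⟨i, v, hv⟩ : ∃ i, ∃ v : V i, ρ i m v ≠ v := by
    by_contra h
    push Not at h
    exact hm1 (hfaith m h)
  have hker : ∀ x ∈ M, (∀ v, ρ i x v = v) → x = 1 := by
    have hmem : ∀ x, x ∈ (ρ i).ker ↔ ∀ v, ρ i x v = v := by
      intro x
      rw [MonoidHom.mem_ker]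
      constructor
      · intro h v; rw [h]; rfl
      · intro h; ext v; exact h v
    rcases hMmin (M ⊓ (ρ i).ker) inferInstance inf_le_left with h | h
    · intro x hx hx2
      have : x ∈ M ⊓ (ρ i).ker := ⟨hx, (hmem x).2 hx2⟩
      rwa [h, mem_bot] at this
    · exfalso
      have : m ∈ M ⊓ (ρ i).ker := by rw [h]; exact hm
      exact hv ((hmem m).1 this.2 v)
  have hcomm : ∀ a ∈ M, ∀ b ∈ M, a * b = b * a := fun a ha b hb => Solv.comm_of_isMulCommutative hMc ha hb
  have hfpf := fpf_of_trans (ρ i) (htr i) M hcomm hker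
  have hHas : Frob.HasFPFModule M := by
    refine ⟨V i, inferInstance, inferInstance, ⟨v, 1, ?_⟩, (ρ i).comp M.subtype, ?_⟩
    · rintro rfl
      exact hv (map_one _)
    · intro a ha w hw
      by_contra hw1
      exact ha (Subtype.ext (hfpf w hw1 a a.2 hw))
  have hMcyc : IsCyclic M := hHas.isCyclic_of_isMulCommutative
  obtain ⟨c, hc⟩ := hMcyc.exists_generator
  have h1 : orderOf c = Nat.card M := orderOf_eq_card_of_forall_mem_zpowers hc
  have h2 : c ^ s = 1 := Subtype.ext (by simpa using hexp c c.2)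
  have h3 : Nat.card M = s := by
    have h3 : orderOf c ∣ s := orderOf_dvd_of_pow_eq_one h2
    rw [h1] at h3
    rcases (Nat.dvd_prime hs).1 h3 with h4 | h4
    · exact absurd (Subgroup.card_eq_one.1 h4) hM1
    · exact h4
  have h4 : s = r := by
    obtain ⟨k, hk⟩ := IsPGroup.iff_card.mp hMr
    rw [h3] at hk
    have hd : s ∣ r ^ k := by rw [← hk]
    exact (Nat.prime_dvd_prime_iff_eq hs hr).1 (hs.dvd_of_dvd_pow hd)
  rw [h4] at h3
  refine ⟨M, hMn, h3, fun x hx => ?_⟩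
  exact hB.mem_of_orderOf_eq M c.2 (by rw [Subgroup.orderOf_coe, h1, h3, hx])

theorem pgroup_of_unique {Q : Type u} [Group Q] [Finite Q] {r : ℕ} [hr : Fact r.Prime] (M : Subgroup Q) (hM : Nat.card M = r)
    (hall : ∀ x : Q, orderOf x = r → x ∈ M) (S : Subgroup Q) (hS : IsPGroup r S) :
    IsCyclic S ∨ (r = 2 ∧ ∃ n : ℕ, Nonempty (S ≃* QuaternionGroup (2 ^ n))) := by
  apply MaxClass.cyclic_or_quaternion hS
  have key : ∀ H : Subgroup S, Nat.card H = r → H.map S.subtype = M := by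
    intro H hH
    apply Subgroup.eq_of_le_of_card_ge
    · rintro _ ⟨x, hx, rfl⟩
      rcases eq_or_ne x 1 with rfl | hx1
      · rw [map_one]; exact one_mem _
      · apply hall
        have h1 : orderOf (⟨x, hx⟩ : H) ∣ r := hH ▸ orderOf_dvd_natCard _
        rw [Subgroup.orderOf_mk] at h1
        rw [Subgroup.coe_subtype, Subgroup.orderOf_coe]
        exact ((Nat.dvd_prime hr.out).mp h1).resolve_left (fun h => hx1 (orderOf_eq_one_iff.mp h))
    · rw [Subgroup.card_map_of_injective S.subtype_injective, hH, hM]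
  intro H K hH hK
  apply Subgroup.map_injective S.subtype_injective
  rw [key H hH, key K hK]

theorem commutator_le_centralizer_of_cyclic {Q : Type u} [Group Q] (N : Subgroup Q) [hN : N.Normal] (hc : IsCyclic N) :
    commutator Q ≤ centralizer (N : Set Q) := by
  obtain ⟨c, hc⟩ := hc.exists_generator
  have key : ∀ g : Q, ∃ i : ℤ, ∀ x ∈ N, g * x * g⁻¹ = x ^ i := by
    intro g
    obtain ⟨i, hi⟩ := mem_zpowers_iff.1 (hc ⟨g * c * g⁻¹, hN.conj_mem c c.2 g⟩)
    refine ⟨i, fun x hx => ?_⟩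
    obtain ⟨k, hk⟩ := mem_zpowers_iff.1 (hc ⟨x, hx⟩)
    have hk' : (c : Q) ^ k = x := by
      have := congrArg Subtype.val hk
      simpa using this
    have hi' : (c : Q) ^ i = g * c * g⁻¹ := by
      have := congrArg Subtype.val hi
      simpa using this
    rw [← hk', ← conj_zpow, ← hi', ← zpow_mul, ← zpow_mul, mul_comm]
  rw [commutator_def, Subgroup.commutator_le]
  intro g _ h _
  rw [mem_centralizer_iff]
  intro x hx
  obtain ⟨i, hi⟩ := key g
  obtain ⟨j, hj⟩ := key h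
  have h1 : ∀ y ∈ N, (g * h) * y * (g * h)⁻¹ = (h * g) * y * (h * g)⁻¹ := by
    intro y hy
    have e1 : (g * h) * y * (g * h)⁻¹ = g * (h * y * h⁻¹) * g⁻¹ := by group
    have e2 : (h * g) * y * (h * g)⁻¹ = h * (g * y * g⁻¹) * h⁻¹ := by group
    rw [e1, e2, hi _ (hN.conj_mem y hy h), hj _ (hN.conj_mem y hy g), hj y hy, hi y hy, ← zpow_mul, ← zpow_mul, mul_comm]
  have hy : (h * g)⁻¹ * x * (h * g) ∈ N := by
    have := hN.conj_mem x hx (h * g)⁻¹
    rwa [inv_inv] at this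
  have h2 := h1 _ hy
  have h3 : (h * g) * ((h * g)⁻¹ * x * (h * g)) * (h * g)⁻¹ = x := by group
  rw [h3] at h2
  have h4 : ⁅g, h⁆ * x * ⁅g, h⁆⁻¹ = x := by
    have e : ⁅g, h⁆ * x * ⁅g, h⁆⁻¹ = g * h * ((h * g)⁻¹ * x * (h * g)) * (g * h)⁻¹ := by
      rw [commutatorElement_def]
      group
    rw [e, h2]
  exact (mul_inv_eq_iff_eq_mul.1 h4).symm

theorem sylow_inf_fitting {Q : Type u} [Group Q] [Finite Q] {r : ℕ} [Fact r.Prime] (P : Subgroup Q) (hP : IsPGroup r P) :
    P ⊓ Cfsg.fittingSubgroup Q ≤ Cfsg.pCore r Q := by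
  have hnil : Group.IsNilpotent (Cfsg.fittingSubgroup Q) := Solv.fitting_isNilpotent
  have h1 : IsPGroup r ((P ⊓ Cfsg.fittingSubgroup Q).subgroupOf (Cfsg.fittingSubgroup Q)) :=
    (hP.to_le (inf_le_left : P ⊓ Cfsg.fittingSubgroup Q ≤ P)).comap_subtype
  obtain ⟨S, hS⟩ := h1.exists_le_sylow
  have hSc : (S : Subgroup (Cfsg.fittingSubgroup Q)).Characteristic := S.characteristic_of_normal inferInstance
  have h2 : (S : Subgroup (Cfsg.fittingSubgroup Q)).map (Cfsg.fittingSubgroup Q).subtype ≤ Cfsg.pCore r Q :=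
    Solv.le_pCore inferInstance (S.isPGroup'.map _)
  intro x hx
  exact h2 ⟨⟨x, hx.2⟩, hS (by rw [mem_subgroupOf]; exact hx), rfl⟩

/-- the elements `xa 0`, `xa 1` -/
theorem quat_noncomm (n : ℕ) (hn : 1 ≤ n) : (QuaternionGroup.xa 0 : QuaternionGroup (2 ^ n)) * QuaternionGroup.xa 1 ≠ QuaternionGroup.xa 1 * QuaternionGroup.xa 0 := by
  intro h
  rw [QuaternionGroup.xa_mul_xa, QuaternionGroup.xa_mul_xa] at h
  have h1 := QuaternionGroup.a.inj h
  have h2 : ((2 : ℕ) : ZMod (2 * 2 ^ n)) = 0 := by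
    push_cast
    linear_combination h1
  rw [ZMod.natCast_eq_zero_iff] at h2
  have h3 := Nat.le_of_dvd (by norm_num) h2
  have h4 : 2 ^ 1 ≤ 2 ^ n := Nat.pow_le_pow_right (by norm_num) hn
  omega

theorem quat_zero_cyclic {P : Type*} [Group P] (e : P ≃* QuaternionGroup (2 ^ 0)) : IsCyclic P := by
  have h1 : IsCyclic (QuaternionGroup (2 ^ 0)) := by
    have : NeZero (2 ^ 0) := ⟨by norm_num⟩
    apply isCyclic_of_orderOf_eq_card (QuaternionGroup.xa 0 : QuaternionGroup (2 ^ 0))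
    rw [QuaternionGroup.orderOf_xa, Nat.card_eq_fintype_card, QuaternionGroup.card]
    norm_num
  exact isCyclic_of_injective e.toMonoidHom e.injective

end Cfsg.Agent.H14.BC
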