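import Mathlib
import Cfsg.Agent.H14.BC2

set_option autoImplicit false

/-! Structure of solvable groups with (BP), II. -/

namespace Cfsg.Agent.H14.BC

open Subgroup Cfsg.Agent.H65
open scoped commutatorElement

universe u

section
variable {Q : Type u} [Group Q] [Finite Q]

theorem le_centralizer_fitting (K : Subgroup Q) (h : ∀ r : ℕ, r.Prime → K ≤ centralizer (Cfsg.pCore r Q : Set Q)) :
    K ≤ centralizer (Cfsg.fittingSubgroup Q : Set Q) := by
  rw [Subgroup.le_centralizer_iff, Solv.fitting_eq_iSup_pCore]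
  apply iSup_le
  intro r
  rw [Subgroup.le_centralizer_iff]
  exact h r r.2

/-- the case of cyclic cores -/
theorem zgroup_of_cyclic_cores (hB : BP Q) (hsol : Group.IsSolvable Q)
    (hU : ∀ r : ℕ, r.Prime → Cfsg.pCore r Q ≠ ⊥ → ∃ M : Subgroup Q, M.Normal ∧ Nat.card M = r ∧ ∀ x, orderOf x = r → x ∈ M)
    (hcyc : ∀ r : ℕ, r.Prime → IsCyclic (Cfsg.pCore r Q)) : IsZGroup Q := by
  have hcomm : commutator Q ≤ Cfsg.fittingSubgroup Q :=
    (le_centralizer_fitting _ (fun r hr => commutator_le_centralizer_of_cyclic _ (hcyc r hr))).trans Solv.centralizer_fitting_le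
  have hqc : IsMulCommutative (Q ⧸ Cfsg.fittingSubgroup Q) := by
    rw [← Subgroup.Normal.quotient_commutative_iff_commutator_le] at hcomm
    exact hcomm
  have hqB : BP (Q ⧸ Cfsg.fittingSubgroup Q) := hB.quotient_solvable hsol _
  have hnil : Group.IsNilpotent (Q ⧸ Cfsg.fittingSubgroup Q) := by
    let _ : CommGroup (Q ⧸ Cfsg.fittingSubgroup Q) := { (inferInstance : Group (Q ⧸ Cfsg.fittingSubgroup Q)) with mul_comm := hqc.is_comm.comm }
    exact CommGroup.isNilpotent
  have hqcyc : IsCyclic (Q ⧸ Cfsg.fittingSubgroup Q) := hqB.isCyclic_of_nilpotent hnil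
  constructor
  intro r hr P
  have : Fact r.Prime := ⟨hr⟩
  obtain ⟨f, hf⟩ : ∃ f : (P : Subgroup Q) →* Q ⧸ Cfsg.fittingSubgroup Q, ∀ x, f x = QuotientGroup.mk' _ (x : Q) :=
    ⟨(QuotientGroup.mk' _).comp (P : Subgroup Q).subtype, fun x => rfl⟩
  have hfker : ∀ x, f x = 1 → (x : Q) ∈ Cfsg.pCore r Q := by
    intro x hx
    rw [hf] at hx
    have h1 : (x : Q) ∈ Cfsg.fittingSubgroup Q := (QuotientGroup.eq_one_iff _).1 hx
    exact sylow_inf_fitting (P : Subgroup Q) P.2 ⟨x.2, h1⟩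
  by_cases hcore : Cfsg.pCore r Q = ⊥
  · apply isCyclic_of_injective f
    rw [injective_iff_map_eq_one]
    intro x hx
    have h1 := hfker x hx
    rw [hcore, mem_bot] at h1
    exact Subtype.ext h1
  · obtain ⟨M, hMn, hM, hall⟩ := hU r hr hcore
    rcases pgroup_of_unique M hM hall (P : Subgroup Q) P.2 with h | ⟨rfl, n, ⟨e⟩⟩
    · exact h
    · rcases Nat.eq_zero_or_pos n with rfl | hn
      · exact quat_zero_cyclic e
      exfalso
      have hNZ : NeZero (2 ^ n) := ⟨by positivity⟩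
      obtain ⟨x, hx⟩ : ∃ x, x = e.symm (QuaternionGroup.xa 0) := ⟨_, rfl⟩
      obtain ⟨y, hy⟩ : ∃ y, y = e.symm (QuaternionGroup.xa 1) := ⟨_, rfl⟩
      have hx4 : orderOf (x : Q) = 4 := by rw [Subgroup.orderOf_coe, hx, MulEquiv.orderOf_eq, QuaternionGroup.orderOf_xa]
      have hy4 : orderOf (y : Q) = 4 := by rw [Subgroup.orderOf_coe, hy, MulEquiv.orderOf_eq, QuaternionGroup.orderOf_xa]
      have hxy : x * y ≠ y * x := by
        intro h
        apply quat_noncomm n hn
        apply e.symm.injective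
        rw [map_mul, map_mul, ← hx, ← hy, h]
      have hno : ∀ c ∈ Cfsg.pCore 2 Q, orderOf c ≠ 4 := by
        intro c hc h4
        have h1 : (x : Q) ∈ Cfsg.pCore 2 Q := hB.mem_of_orderOf_eq _ hc (by rw [h4, hx4])
        have h2 : (y : Q) ∈ Cfsg.pCore 2 Q := hB.mem_of_orderOf_eq _ hc (by rw [h4, hy4])
        have hc2 := hcyc 2 Nat.prime_two
        have h3 := (IsCyclic.isMulCommutative (α := Cfsg.pCore 2 Q)).is_comm.comm ⟨x, h1⟩ ⟨y, h2⟩
        have h4 : (x : Q) * y = y * x := congrArg Subtype.val h3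
        exact hxy (Subtype.ext h4)
      have hcard : Nat.card (Cfsg.pCore 2 Q) = 2 := by
        obtain ⟨k, hk⟩ := IsPGroup.iff_card.mp (Solv.pCore_isPGroup (G := Q) 2)
        have hk0 : k ≠ 0 := by
          rintro rfl
          rw [pow_zero] at hk
          exact hcore (Subgroup.card_eq_one.1 hk)
        have hk2 : k < 2 := by
          by_contra hk2
          push Not at hk2
          obtain ⟨g, hg⟩ := (hcyc 2 Nat.prime_two).exists_generator
          have h1 : orderOf g = 2 ^ k := by rw [orderOf_eq_card_of_forall_mem_zpowers hg, hk]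
          have h2 : orderOf (g ^ (2 ^ (k - 2))) = 4 := by
            rw [orderOf_pow, h1, Nat.gcd_eq_right (pow_dvd_pow 2 (by omega)), Nat.pow_div (by omega) (by norm_num)]
            have : k - (k - 2) = 2 := by omega
            rw [this]
          exact hno _ (g ^ (2 ^ (k - 2))).2 (by rw [Subgroup.orderOf_coe, h2])
        have : k = 1 := by omega
        rw [hk, this, pow_one]
      have hcent : ∀ c ∈ Cfsg.pCore 2 Q, ∀ q : Q, q * c = c * q := by
        intro c hc q
        rcases eq_or_ne c 1 with rfl | hc1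
        · rw [mul_one, one_mul]
        · have h1 : ∀ d ∈ Cfsg.pCore 2 Q, d ≠ 1 → d = c := by
            intro d hd hd1
            have h2 := Nat.card_eq_two_iff' (⟨1, one_mem _⟩ : Cfsg.pCore 2 Q) |>.1 hcard
            obtain ⟨z, hz, hz'⟩ := h2
            have e1 := hz' ⟨d, hd⟩ (fun h => hd1 (congrArg Subtype.val h))
            have e2 := hz' ⟨c, hc⟩ (fun h => hc1 (congrArg Subtype.val h))
            exact congrArg Subtype.val (e1.trans e2.symm)
          have h2 := h1 (q * c * q⁻¹) ((inferInstance : (Cfsg.pCore 2 Q).Normal).conj_mem c hc q) (by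
            intro h
            apply hc1
            rw [mul_inv_eq_one] at h
            exact mul_left_cancel (h.trans (mul_one q).symm))
          exact mul_inv_eq_iff_eq_mul.1 h2
      have hPc := MonoidHom.isMulCommutative_of_isCyclic_of_ker_le_center f (by
        intro c hc
        rw [MonoidHom.mem_ker] at hc
        rw [mem_center_iff]
        intro q
        exact Subtype.ext (hcent c (hfker c hc) q))
      exact hxy (hPc.is_comm.comm x y)

theorem card_mulAut_quat : Nat.card (MulAut (QuaternionGroup 2)) = 24 := by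
  obtain ⟨e⟩ := Cfsg.Agent.S3742.result
  rw [Nat.card_congr e.toEquiv, Nat.card_perm, Nat.card_eq_fintype_card, Fintype.card_fin]
  rfl

/-- the case of a noncyclic core -/
theorem quat_of_noncyclic_core (hB : BP Q) (hsol : Group.IsSolvable Q)
    (hU : ∀ r : ℕ, r.Prime → Cfsg.pCore r Q ≠ ⊥ → ∃ M : Subgroup Q, M.Normal ∧ Nat.card M = r ∧ ∀ x, orderOf x = r → x ∈ M)
    {r₀ : ℕ} (hr₀ : r₀.Prime) (hnc : ¬ IsCyclic (Cfsg.pCore r₀ Q)) :
    Nonempty (Cfsg.pCore 2 Q ≃* QuaternionGroup 2) ∧ (∀ P : Sylow 2 Q, (P : Subgroup Q) = Cfsg.pCore 2 Q) ∧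
      ∀ r, r.Prime → r ≠ 2 → ∀ S : Sylow r Q, IsCyclic S := by
  have hF₀ : Fact r₀.Prime := ⟨hr₀⟩
  have hcore₀ : Cfsg.pCore r₀ Q ≠ ⊥ := by
    intro h
    apply hnc
    rw [h]; infer_instance
  obtain ⟨M, hMn, hM, hall⟩ := hU r₀ hr₀ hcore₀
  rcases pgroup_of_unique M hM hall (Cfsg.pCore r₀ Q) (Solv.pCore_isPGroup r₀) with h | ⟨rfl, n, ⟨e⟩⟩
  · exact absurd h hnc
  have hn : 1 ≤ n := by
    rcases Nat.eq_zero_or_pos n with rfl | hn
    · exact absurd (quat_zero_cyclic e) hnc
    · exact hn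
  have hNZ : NeZero (2 ^ n) := ⟨by positivity⟩
  obtain ⟨x, hx⟩ : ∃ x, x = e.symm (QuaternionGroup.xa 0) := ⟨_, rfl⟩
  obtain ⟨y, hy⟩ : ∃ y, y = e.symm (QuaternionGroup.xa 1) := ⟨_, rfl⟩
  have hx4 : orderOf (x : Q) = 4 := by rw [Subgroup.orderOf_coe, hx, MulEquiv.orderOf_eq, QuaternionGroup.orderOf_xa]
  have hy4 : orderOf (y : Q) = 4 := by rw [Subgroup.orderOf_coe, hy, MulEquiv.orderOf_eq, QuaternionGroup.orderOf_xa]
  have hxy : x * y ≠ y * x := by
    intro h
    apply quat_noncomm n hn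
    apply e.symm.injective
    rw [map_mul, map_mul, ← hx, ← hy, h]
  have hxy' : (x : Q) * y ≠ y * x := fun h => hxy (Subtype.ext h)
  have hall4 : ∀ z : Q, orderOf z = 4 → z ∈ Cfsg.pCore 2 Q := fun z hz => hB.mem_of_orderOf_eq _ x.2 (by rw [hx4, hz])
  -- Sylow
  have hSyl : ∀ P : Sylow 2 Q, (P : Subgroup Q) = Cfsg.pCore 2 Q := by
    intro P
    apply le_antisymm _ (Solv.pCore_le_sylow P)
    rcases pgroup_of_unique M hM hall (P : Subgroup Q) P.2 with h | ⟨-, m, ⟨e'⟩⟩
    · exact absurd (Subgroup.isCyclic_of_le (Solv.pCore_le_sylow P)) hnc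
    · have hNZ' : NeZero (2 ^ m) := ⟨by positivity⟩
      have hxa : ∀ i, ((e'.symm (QuaternionGroup.xa i) : (P : Subgroup Q)) : Q) ∈ Cfsg.pCore 2 Q := by
        intro i
        apply hall4
        rw [Subgroup.orderOf_coe, MulEquiv.orderOf_eq, QuaternionGroup.orderOf_xa]
      intro z hz
      obtain ⟨w, hw⟩ : ∃ w, w = e' ⟨z, hz⟩ := ⟨_, rfl⟩
      have hzw : z = ((e'.symm w : (P : Subgroup Q)) : Q) := by rw [hw, MulEquiv.symm_apply_apply]
      rcases w with i | i
      · have h1 : (QuaternionGroup.a i : QuaternionGroup (2 ^ m)) = QuaternionGroup.xa 0 * QuaternionGroup.xa (i - ((2 ^ m : ℕ) : ZMod (2 * 2 ^ m))) := by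
          rw [QuaternionGroup.xa_mul_xa]
          congr 1
          ring
        rw [hzw, h1, map_mul, Subgroup.coe_mul]
        exact mul_mem (hxa _) (hxa _)
      · rw [hzw]; exact hxa i
  have hn1 : n = 1 := by
    by_contra hn1
    have hn2 : 2 ≤ n := by omega
    obtain ⟨P⟩ : Nonempty (Sylow 2 Q) := inferInstance
    have h8mem : ∀ z : Q, orderOf z = 8 → z ∈ Cfsg.pCore 2 Q := by
      intro z hz
      have h1 : IsPGroup 2 (zpowers z) := IsPGroup.of_card (n := 3) (by rw [Nat.card_zpowers, hz]; norm_num)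
      obtain ⟨P', hP'⟩ := h1.exists_le_sylow
      rw [← hSyl P']
      exact hP' (mem_zpowers z)
    have h8a : ∀ z : Q, orderOf z = 8 → ∃ i, ∃ hz : z ∈ Cfsg.pCore 2 Q, e ⟨z, hz⟩ = QuaternionGroup.a i := by
      intro z hz
      obtain ⟨w, hw⟩ : ∃ w, w = e ⟨z, h8mem z hz⟩ := ⟨_, rfl⟩
      rcases w with i | i
      · exact ⟨i, h8mem z hz, hw.symm⟩
      · exfalso
        have h1 : orderOf (e ⟨z, h8mem z hz⟩) = 8 := by rw [MulEquiv.orderOf_eq, Subgroup.orderOf_mk, hz]
        rw [← hw, QuaternionGroup.orderOf_xa] at h1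
        omega
    obtain ⟨H, hH⟩ : ∃ H : Subgroup Q, H = closure {z : Q | orderOf z = 8} := ⟨_, rfl⟩
    have hHn : H.Normal := by
      rw [hH]
      constructor
      intro z hz g
      induction hz using Subgroup.closure_induction with
      | mem z hz =>
        apply Subgroup.subset_closure
        change orderOf (g * z * g⁻¹) = 8
        have : orderOf (g * z * g⁻¹) = orderOf z := MulEquiv.orderOf_eq (MulAut.conj g) z
        rw [this]; exact hz
      | one => rw [mul_one, mul_inv_cancel]; exact one_mem _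
      | mul a b _ _ ha hb =>
        have : g * (a * b) * g⁻¹ = (g * a * g⁻¹) * (g * b * g⁻¹) := by group
        rw [this]; exact mul_mem ha hb
      | inv a _ ha =>
        have : g * a⁻¹ * g⁻¹ = (g * a * g⁻¹)⁻¹ := by group
        rw [this]; exact inv_mem ha
    have hHc : IsMulCommutative H := by
      rw [hH]
      apply Subgroup.isMulCommutative_closure
      intro z hz w hw
      obtain ⟨i, hz1, hz2⟩ := h8a z hz
      obtain ⟨j, hw1, hw2⟩ := h8a w hw
      have h1 : (⟨z, hz1⟩ : Cfsg.pCore 2 Q) * ⟨w, hw1⟩ = ⟨w, hw1⟩ * ⟨z, hz1⟩ := by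
        apply e.injective
        rw [map_mul, map_mul, hz2, hw2, QuaternionGroup.a_mul_a, QuaternionGroup.a_mul_a, add_comm]
      exact congrArg Subtype.val h1
    have h8 : orderOf (QuaternionGroup.a ((2 ^ (n - 2) : ℕ) : ZMod (2 * 2 ^ n)) : QuaternionGroup (2 ^ n)) = 8 := by
      rw [QuaternionGroup.orderOf_a, ZMod.val_natCast_of_lt]
      · have h1 : 2 * 2 ^ n = 2 ^ (n - 2) * 8 := by
          obtain ⟨k, rfl⟩ : ∃ k, n = k + 2 := ⟨n - 2, by omega⟩
          rw [Nat.add_sub_cancel, pow_add]; ring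
        rw [h1, Nat.gcd_eq_right (dvd_mul_right _ _), Nat.mul_div_cancel_left _ (by positivity)]
      · have h1 : 2 ^ (n - 2) < 2 ^ n := Nat.pow_lt_pow_right (by norm_num) (by omega)
        omega
    obtain ⟨c, hc⟩ : ∃ c, c = e.symm (QuaternionGroup.a ((2 ^ (n - 2) : ℕ) : ZMod (2 * 2 ^ n))) := ⟨_, rfl⟩
    have hc8 : orderOf (c : Q) = 8 := by rw [Subgroup.orderOf_coe, hc, MulEquiv.orderOf_eq, h8]
    have hcH : (c : Q) ∈ H := by rw [hH]; exact Subgroup.subset_closure hc8
    have hc4 : orderOf ((c : Q) ^ 2) = 4 := by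
      rw [orderOf_pow, hc8]; rfl
    have h1 : (x : Q) ∈ H := hB.mem_of_orderOf_eq _ (pow_mem hcH 2) (by rw [hc4, hx4])
    have h2 : (y : Q) ∈ H := hB.mem_of_orderOf_eq _ (pow_mem hcH 2) (by rw [hc4, hy4])
    exact hxy' (Solv.comm_of_isMulCommutative hHc h1 h2)
  subst hn1
  rw [pow_one] at e
  refine ⟨⟨e⟩, hSyl, ?_⟩
  intro r hr hr2 S
  have hF : Fact r.Prime := ⟨hr⟩
  by_cases hcore : Cfsg.pCore r Q = ⊥
  swap
  · obtain ⟨M', hMn', hM', hall'⟩ := hU r hr hcore
    rcases pgroup_of_unique M' hM' hall' (S : Subgroup Q) S.2 with h | ⟨h, -⟩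
    · exact h
    · exact absurd h hr2
  rcases pgroup_cases S.2 with h | h | ⟨E₀, hE₀, hE₀c, hE₀e⟩
  · exact h
  · exact absurd h.1 hr2
  exfalso
  obtain ⟨E, hE⟩ : ∃ E : Subgroup Q, E = E₀.map (S : Subgroup Q).subtype := ⟨_, rfl⟩
  have hEc : Nat.card E = r ^ 2 := by rw [hE, Subgroup.card_map_of_injective (Subgroup.subtype_injective _), hE₀c]
  have hEe : ∀ z ∈ E, z ^ r = 1 := by
    rw [hE]
    rintro _ ⟨z, hz, rfl⟩
    rw [← map_pow, hE₀e z hz, map_one]
  have hEo : ∀ z ∈ E, z ≠ 1 → orderOf z = r := by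
    intro z hz hz1
    have h1 : orderOf z ∣ r := orderOf_dvd_of_pow_eq_one (hEe z hz)
    exact ((Nat.dvd_prime hr).mp h1).resolve_left (fun h => hz1 (orderOf_eq_one_iff.mp h))
  have hrr : r < r ^ 2 := by
    rw [sq]; exact lt_mul_of_one_lt_left hr.pos hr.one_lt
  -- an element of order `r` centralizing the core
  have hcl2 : ∀ z : Q, orderOf z = r → z ∈ centralizer (Cfsg.pCore 2 Q : Set Q) := by
    obtain ⟨ψ, hψ⟩ : ∃ ψ : E →* MulAut (Cfsg.pCore 2 Q), ∀ z (c : Cfsg.pCore 2 Q), ((ψ z c : Cfsg.pCore 2 Q) : Q) = z * c * (z : Q)⁻¹ :=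
      ⟨MulAut.conjNormal.comp E.subtype, fun z c => rfl⟩
    have hninj : ¬ Function.Injective ψ := by
      intro hinj
      have h1 := Subgroup.card_dvd_of_injective ψ hinj
      have h2 : Nat.card (MulAut (Cfsg.pCore 2 Q)) = 24 := by
        rw [Nat.card_congr (MulAut.congr e).toEquiv, card_mulAut_quat]
      rw [h2, hEc] at h1
      have h3 : r ^ 2 ≤ 24 := Nat.le_of_dvd (by norm_num) h1
      have h4 : r < 5 := by nlinarith
      have h5 := hr.two_le
      interval_cases r
      · exact hr2 rfl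
      · norm_num at h1
      · norm_num at hr
    rw [injective_iff_map_eq_one] at hninj
    push Not at hninj
    obtain ⟨z₀, hz₀, hz₀1⟩ := hninj
    have hz₀o : orderOf (z₀ : Q) = r := hEo _ z₀.2 (fun h => hz₀1 (Subtype.ext h))
    have hz₀c : (z₀ : Q) ∈ centralizer (Cfsg.pCore 2 Q : Set Q) := by
      rw [mem_centralizer_iff]
      intro c hc
      have h1 := hψ z₀ ⟨c, hc⟩
      rw [hz₀] at h1
      exact (mul_inv_eq_iff_eq_mul.1 h1.symm).symm
    intro z hz
    exact hB.mem_of_orderOf_eq _ hz₀c (by rw [hz₀o, hz])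
  have hcl1 : ∀ z : Q, orderOf z = r → z ∈ commutator Q := by
    have hE1 : E ≠ ⊥ := by
      intro h
      rw [h, Subgroup.card_bot] at hEc
      have := Nat.one_lt_pow (n := 2) (by norm_num) hr.one_lt
      omega
    obtain ⟨a, ha, ha1⟩ : ∃ a ∈ E, a ≠ 1 := by
      by_contra h
      push Not at h
      exact hE1 ((eq_bot_iff_forall E).2 h)
    have hao := hEo a ha ha1
    obtain ⟨b, hb, hba⟩ : ∃ b ∈ E, b ∉ zpowers a := by
      by_contra h
      push Not at h
      have h1 : E ≤ zpowers a := h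
      have h2 := Nat.le_of_dvd Nat.card_pos (Subgroup.card_dvd_of_le h1)
      rw [hEc, Nat.card_zpowers, hao] at h2
      omega
    have hb1 : b ≠ 1 := by rintro rfl; exact hba (one_mem _)
    have hbo := hEo b hb hb1
    obtain ⟨g, hg⟩ := hB (zpowers a) (zpowers b) inferInstance inferInstance (by rw [Nat.card_zpowers, Nat.card_zpowers, hao, hbo])
    have h1 : g * a * g⁻¹ ∈ zpowers b := by
      rw [hg]
      exact ⟨a, mem_zpowers a, rfl⟩
    have h2 : g * a * g⁻¹ * a⁻¹ ∈ E := mul_mem ((zpowers_le.2 hb) h1) (inv_mem ha)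
    have h3 : g * a * g⁻¹ * a⁻¹ ≠ 1 := by
      intro h
      rw [mul_inv_eq_one] at h
      rw [h] at h1
      have h4 : zpowers a = zpowers b := by
        apply Subgroup.eq_of_le_of_card_ge
        · rwa [zpowers_le]
        · rw [Nat.card_zpowers, Nat.card_zpowers, hao, hbo]
      exact hba (h4 ▸ mem_zpowers b)
    have h4 : g * a * g⁻¹ * a⁻¹ ∈ commutator Q := by
      have := Subgroup.commutator_mem_commutator (mem_top g) (mem_top a)
      exact this
    intro z hz
    exact hB.mem_of_orderOf_eq _ h4 (by rw [hEo _ h2 h3, hz])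
  -- conclusion
  obtain ⟨a, ha⟩ : ∃ a : Q, orderOf a = r := by
    have h1 : r ∣ Nat.card E := by rw [hEc]; exact dvd_pow_self _ (by norm_num)
    obtain ⟨a, ha⟩ := exists_prime_orderOf_dvd_card' r h1
    exact ⟨a, by rw [Subgroup.orderOf_coe, ha]⟩
  have hZ : commutator Q ⊓ centralizer (Cfsg.pCore 2 Q : Set Q) ≤ centralizer (Cfsg.fittingSubgroup Q : Set Q) := by
    apply le_centralizer_fitting
    intro s hs
    by_cases hs2 : s = 2
    · rw [hs2]; exact inf_le_right
    · refine inf_le_left.trans (commutator_le_centralizer_of_cyclic _ ?_)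
      have hFs : Fact s.Prime := ⟨hs⟩
      by_cases hcs : Cfsg.pCore s Q = ⊥
      · rw [hcs]; infer_instance
      · obtain ⟨M', hMn', hM', hall'⟩ := hU s hs hcs
        rcases pgroup_of_unique M' hM' hall' (Cfsg.pCore s Q) (Solv.pCore_isPGroup s) with h | ⟨h, -⟩
        · exact h
        · exact absurd h hs2
  have h1 : a ∈ Cfsg.fittingSubgroup Q := Solv.centralizer_fitting_le (hZ ⟨hcl1 a ha, hcl2 a ha⟩)
  have h2 : IsPGroup r (zpowers a) := IsPGroup.of_card (n := 1) (by rw [Nat.card_zpowers, ha, pow_one])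
  have h3 := sylow_inf_fitting (zpowers a) h2 ⟨mem_zpowers a, h1⟩
  rw [hcore, mem_bot] at h3
  rw [h3, orderOf_one] at ha
  exact hr.one_lt.ne ha

end

end Cfsg.Agent.H14.BC
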