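import Mathlib
import Cfsg.Agent.H14.BC3

set_option autoImplicit false

/-! Solvable groups with (BP): all subgroups of equal order are conjugate. -/

namespace Cfsg.Agent.H14.BC

open Subgroup Cfsg.Agent.H65
open scoped commutatorElement

universe u

theorem exists_sub_avoid {E : Type*} [CommGroup E] [Finite E] {p : ℕ} (hp : p.Prime) (hexp : ∀ x : E, x ^ p = 1) {n d : ℕ}
    (hE : Nat.card E = p ^ n) (hd1 : 1 ≤ d) (hdn : d < n) (v w : E) (hv : v ≠ 1) (hw : w ∉ zpowers v) :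
    ∃ X : Subgroup E, Nat.card X = p ^ d ∧ v ∈ X ∧ w ∉ X := by
  have hF : Fact p.Prime := ⟨hp⟩
  have hord : ∀ x : E, x ≠ 1 → orderOf x = p := fun x hx =>
    ((Nat.dvd_prime hp).mp (orderOf_dvd_of_pow_eq_one (hexp x))).resolve_left (fun h => hx (orderOf_eq_one_iff.mp h))
  have hfin : ({Y : Subgroup E | v ∈ Y ∧ w ∉ Y} : Set (Subgroup E)).Finite := Set.toFinite _
  obtain ⟨Y, hY⟩ := hfin.exists_maximal ⟨zpowers v, mem_zpowers v, hw⟩
  have hvY : v ∈ Y := hY.prop.1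
  have hwY : w ∉ Y := hY.prop.2
  have htop : Y ⊔ zpowers w = ⊤ := by
    rw [eq_top_iff]
    intro u _
    by_cases hu : u ∈ Y
    · exact (le_sup_left : Y ≤ _) hu
    have h1 : w ∈ Y ⊔ zpowers u := by
      by_contra h1
      have h2 : Y ⊔ zpowers u ≤ Y := hY.le_of_ge ⟨(le_sup_left : Y ≤ _) hvY, h1⟩ le_sup_left
      exact hu (h2 ((le_sup_right : zpowers u ≤ _) (mem_zpowers u)))
    obtain ⟨y, hy, z, hz, hyz⟩ := Subgroup.mem_sup.1 h1
    have hz1 : z ≠ 1 := by
      rintro rfl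
      rw [mul_one] at hyz
      exact hwY (hyz ▸ hy)
    have hu1 : u ≠ 1 := by rintro rfl; exact hu (one_mem _)
    have h2 : zpowers z = zpowers u := by
      apply Subgroup.eq_of_le_of_card_ge
      · rwa [zpowers_le]
      · rw [Nat.card_zpowers, Nat.card_zpowers, hord z hz1, hord u hu1]
    have h3 : z ∈ Y ⊔ zpowers w := by
      have : z = y⁻¹ * w := by rw [← hyz]; group
      rw [this]
      exact mul_mem ((le_sup_left : Y ≤ _) (inv_mem hy)) ((le_sup_right : zpowers w ≤ _) (mem_zpowers w))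
    exact (zpowers_le.2 h3) (h2 ▸ mem_zpowers u)
  obtain ⟨m, hm⟩ : ∃ m, Nat.card Y = p ^ m := by
    have h1 : Nat.card Y ∣ p ^ n := hE ▸ Subgroup.card_subgroup_dvd_card Y
    obtain ⟨m, -, hm⟩ := (Nat.dvd_prime_pow hp).1 h1
    exact ⟨m, hm⟩
  have hw1 : w ≠ 1 := by rintro rfl; exact hw (one_mem _)
  have hmn : d ≤ m := by
    have h1 := Solv.mul_card_sup_of_normal Y (zpowers w)
    rw [htop, Subgroup.card_top, hE, hm, Nat.card_zpowers, hord w hw1, ← pow_succ] at h1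
    have h2 : p ^ n ∣ p ^ (m + 1) := h1 ▸ dvd_mul_right _ _
    have h3 := (Nat.pow_dvd_pow_iff_le_right hp.one_lt).1 h2
    omega
  obtain ⟨X', hX'1, hX'2⟩ := Sylow.exists_subgroup_card_pow_prime_le (G := Y) p (n := 1) (m := d) (by rw [hm]; exact pow_dvd_pow p hmn)
    (zpowers (⟨v, hvY⟩ : Y)) (by rw [Nat.card_zpowers, Subgroup.orderOf_mk, hord v hv, pow_one]) hd1
  refine ⟨X'.map Y.subtype, ?_, ?_, ?_⟩
  · rw [Subgroup.card_map_of_injective Y.subtype_injective, hX'1]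
  · exact ⟨⟨v, hvY⟩, hX'2 (mem_zpowers _), rfl⟩
  · rintro ⟨z, -, hz⟩
    exact hwY (hz ▸ z.2)

section
variable {G : Type u} [Group G] [Finite G]

/-- facts on the cores when the basic reductions do not apply -/
theorem core_facts (hB : BP G) (hsol : Group.IsSolvable G) (A B : Subgroup G) (hAB : Nat.card A = Nat.card B)
    (hno : ∀ N : Subgroup G, N.Normal → N ≠ ⊥ → ¬ ((N ≤ A ∧ N ≤ B) ∨ (Nat.card N).Coprime (Nat.card A)))
    {p : ℕ} (hp : p.Prime) (hcore : Cfsg.pCore p G ≠ ⊥) :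
    IsMulCommutative (Cfsg.pCore p G) ∧ (∀ x ∈ Cfsg.pCore p G, x ^ p = 1) ∧ (∀ P : Sylow p G, (P : Subgroup G) = Cfsg.pCore p G) ∧
      Cfsg.pCore p G ⊓ B ≠ ⊥ ∧ ¬ Cfsg.pCore p G ≤ B := by
  have hF : Fact p.Prime := ⟨hp⟩
  obtain ⟨M, hMn, hMle, hM1, hMmin⟩ := Solv.exists_minimal_normal (Cfsg.pCore p G) inferInstance hcore
  obtain ⟨hMc, s, hs, hexp⟩ := Solv.minimal_normal_of_solvable M inferInstance hM1 hMmin
  have hMp : IsPGroup p M := (Solv.pCore_isPGroup p).to_le hMle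
  obtain ⟨k, hk⟩ := IsPGroup.iff_card.mp hMp
  have hk0 : k ≠ 0 := by
    rintro rfl
    rw [pow_zero] at hk
    exact hM1 (Subgroup.card_eq_one.1 hk)
  obtain ⟨m, hm⟩ := exists_prime_orderOf_dvd_card' (G := M) p (by rw [hk]; exact dvd_pow_self p hk0)
  have hmG : orderOf (m : G) = p := by rw [Subgroup.orderOf_coe, hm]
  have hsp : s = p := by
    have h1 : orderOf (m : G) ∣ s := orderOf_dvd_of_pow_eq_one (hexp _ m.2)
    rw [hmG] at h1
    exact ((Nat.prime_dvd_prime_iff_eq hp hs).1 h1).symm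
  subst hsp
  have hall : ∀ x : G, orderOf x = s → x ∈ M := fun x hx => hB.mem_of_orderOf_eq M m.2 (by rw [hmG, hx])
  have hk1 : k ≠ 1 := by
    rintro rfl
    exact hno M hMn hM1 (case_of_prime M hs (by rw [hk, pow_one]) hall A B hAB)
  obtain ⟨E₀, hE₀⟩ := Sylow.exists_subgroup_card_pow_prime (G := M) s (n := 2) (by rw [hk]; exact pow_dvd_pow s (by omega))
  have hexpall : ∀ (x : G) (j : ℕ), orderOf x = s ^ j → x ^ s = 1 := by
    intro x j hx
    refine hB.exponent_of_elementary (E₀.map M.subtype) ?_ ?_ ?_ hx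
    · have hc : ∀ a b : E₀.map M.subtype, a * b = b * a := by
        rintro ⟨_, ⟨a, ha, rfl⟩⟩ ⟨_, ⟨b, hb, rfl⟩⟩
        apply Subtype.ext
        exact Solv.comm_of_isMulCommutative hMc a.2 b.2
      exact ⟨⟨hc⟩⟩
    · rw [Subgroup.card_map_of_injective M.subtype_injective, hE₀]
    · rintro _ ⟨y, -, rfl⟩
      exact hexp _ y.2
  have hPM : ∀ P : Sylow s G, (P : Subgroup G) ≤ M := by
    intro P x hx
    obtain ⟨j, hj⟩ := P.2 ⟨x, hx⟩
    have hj' : x ^ s ^ j = 1 := by simpa using congrArg Subtype.val hj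
    obtain ⟨i, -, hi⟩ := (Nat.dvd_prime_pow hs).1 (orderOf_dvd_of_pow_eq_one hj')
    have h1 := hexpall x i hi
    rcases eq_or_ne x 1 with rfl | hx1
    · exact one_mem _
    · exact hall x (((Nat.dvd_prime hs).mp (orderOf_dvd_of_pow_eq_one h1)).resolve_left (fun h => hx1 (orderOf_eq_one_iff.mp h)))
  obtain ⟨P₀⟩ : Nonempty (Sylow s G) := inferInstance
  have hMc' : M = Cfsg.pCore s G := le_antisymm hMle ((Solv.pCore_le_sylow P₀).trans (hPM P₀))
  have hSyl : ∀ P : Sylow s G, (P : Subgroup G) = Cfsg.pCore s G := fun P =>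
    le_antisymm ((hPM P).trans hMle) (Solv.pCore_le_sylow P)
  have hnoM := hno (Cfsg.pCore s G) inferInstance hcore
  push Not at hnoM
  obtain ⟨hn1, hn2⟩ := hnoM
  have hsA : s ∣ Nat.card A := by
    by_contra h
    apply hn2
    rw [← hMc', hk]
    exact Nat.Coprime.pow_left _ ((Nat.Prime.coprime_iff_not_dvd hs).2 h)
  -- a subgroup containing the core
  have key : ∀ C : Subgroup G, Nat.card (Cfsg.pCore s G) ∣ Nat.card C → Cfsg.pCore s G ≤ C := by
    intro C hC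
    rw [← hMc', hk] at hC
    obtain ⟨X, hX⟩ := Sylow.exists_subgroup_card_pow_prime (G := C) s hC
    have h1 : Nat.card (X.map C.subtype) = s ^ k := by rw [Subgroup.card_map_of_injective C.subtype_injective, hX]
    have h2 : IsPGroup s (X.map C.subtype) := IsPGroup.of_card h1
    obtain ⟨P, hP⟩ := h2.exists_le_sylow
    rw [hSyl P] at hP
    have h3 : X.map C.subtype = Cfsg.pCore s G := by
      apply Subgroup.eq_of_le_of_card_ge hP
      rw [h1, ← hMc', hk]
    rw [← h3]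
    exact Subgroup.map_subtype_le X
  refine ⟨hMc' ▸ hMc, hMc' ▸ hexp, hSyl, ?_, ?_⟩
  · intro h
    obtain ⟨b, hb⟩ := exists_prime_orderOf_dvd_card' (G := B) s (hAB ▸ hsA)
    have hbG : orderOf (b : G) = s := by rw [Subgroup.orderOf_coe, hb]
    have : (b : G) ∈ Cfsg.pCore s G ⊓ B := ⟨hMc' ▸ hall _ hbG, b.2⟩
    rw [h, mem_bot] at this
    rw [this, orderOf_one] at hbG
    exact hs.one_lt.ne hbG
  · intro h
    exact hn1 (key A (hAB ▸ Subgroup.card_dvd_of_le h)) h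

end

end Cfsg.Agent.H14.BC
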