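import Mathlib
import Cfsg.Agent.H14.BC4

set_option autoImplicit false

/-! Solvable groups with (BP): all subgroups of equal order are conjugate (main induction). -/

namespace Cfsg.Agent.H14.BC

open Subgroup Cfsg.Agent.H65
open scoped commutatorElement

universe u

/-- a subgroup of a `Q₈`-group structure not containing the `Q₈` -/
theorem zgroup_sub {Q : Type u} [Group Q] [Finite Q] (M : Subgroup Q) (hM : Nat.card M = 2) (hall : ∀ x : Q, orderOf x = 2 → x ∈ M)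
    (e : Cfsg.pCore 2 Q ≃* QuaternionGroup 2) (hSyl : ∀ P : Sylow 2 Q, (P : Subgroup Q) = Cfsg.pCore 2 Q)
    (hodd : ∀ r, r.Prime → r ≠ 2 → ∀ S : Sylow r Q, IsCyclic S) (L : Subgroup Q) (hL : ¬ Cfsg.pCore 2 Q ≤ L) : IsZGroup L := by
  constructor
  intro r hr T
  have hF : Fact r.Prime := ⟨hr⟩
  have hT : IsPGroup r ((T : Subgroup L).map L.subtype) := T.2.map _
  have hTi : ∀ C : Subgroup Q, (T : Subgroup L).map L.subtype ≤ C → IsCyclic C → IsCyclic T := by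
    intro C hC hCc
    have h1 : IsCyclic ((T : Subgroup L).map L.subtype) := Subgroup.isCyclic_of_le hC
    exact isCyclic_of_injective ((T : Subgroup L).equivMapOfInjective L.subtype L.subtype_injective).toMonoidHom
      (MulEquiv.injective _)
  obtain ⟨S, hS⟩ := hT.exists_le_sylow
  by_cases hr2 : r = 2
  · subst hr2
    rw [hSyl S] at hS
    rcases pgroup_of_unique M hM hall _ hT with h | ⟨-, n, ⟨f⟩⟩
    · exact hTi _ le_rfl h
    · have hcard : Nat.card ((T : Subgroup L).map L.subtype) = 4 * 2 ^ n := by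
        rw [Nat.card_congr f.toEquiv, Nat.card_eq_fintype_card, QuaternionGroup.card]
      have hcardR : Nat.card (Cfsg.pCore 2 Q) = 8 := by
        rw [Nat.card_congr e.toEquiv, Nat.card_eq_fintype_card, QuaternionGroup.card]
      have hn : n = 0 := by
        by_contra hn
        apply hL
        have h1 : 2 ^ 1 ≤ 2 ^ n := Nat.pow_le_pow_right (by norm_num) (by omega)
        have h2 : (T : Subgroup L).map L.subtype = Cfsg.pCore 2 Q := by
          apply Subgroup.eq_of_le_of_card_ge hS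
          rw [hcard, hcardR]; omega
        rw [← h2]
        exact Subgroup.map_subtype_le _
      subst hn
      exact hTi _ le_rfl (quat_zero_cyclic f)
  · exact hTi _ hS (hodd r hr hr2 S)

theorem coprime_unique {a₁ b₁ a₂ b₂ m n : ℕ} (hmn : m.Coprime n) (ha₁ : a₁ ∣ m) (ha₂ : a₂ ∣ m) (hb₁ : b₁ ∣ n) (hb₂ : b₂ ∣ n)
    (h : a₁ * b₁ = a₂ * b₂) : b₁ = b₂ := by
  apply Nat.dvd_antisymm
  · have h1 : b₁ ∣ a₂ * b₂ := h ▸ dvd_mul_left _ _
    exact (Nat.Coprime.coprime_dvd_left hb₁ (Nat.Coprime.coprime_dvd_right ha₂ hmn.symm)).dvd_of_dvd_mul_left h1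
  · have h1 : b₂ ∣ a₁ * b₁ := h ▸ dvd_mul_left _ _
    exact (Nat.Coprime.coprime_dvd_left hb₂ (Nat.Coprime.coprime_dvd_right ha₁ hmn.symm)).dvd_of_dvd_mul_left h1

open Pointwise in
/-- conjugacy over a normal Hall subgroup when the intersections agree -/
theorem conj_of_sup {W : Type u} [Group W] [Finite W] (hsol : Group.IsSolvable W) (F D A B : Subgroup W) [F.Normal] [hD : D.Normal]
    (hDF : D ≤ F) (hF : (Nat.card F).Coprime F.index) (hA : F ⊓ A = D) (hB : F ⊓ B = D) (hAB : Nat.card A = Nat.card B) (hsup : F ⊔ A = F ⊔ B) :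
    ∃ g : W, B = A.map (MulAut.conj g).toMonoidHom := by
  have hDA : D ≤ A := hA ▸ inf_le_right
  have hDB : D ≤ B := hB ▸ inf_le_right
  have hFn : (F.map (QuotientGroup.mk' D)).Normal := ‹F.Normal›.map _ (QuotientGroup.mk'_surjective D)
  have hcF : Nat.card (F.map (QuotientGroup.mk' D)) ∣ Nat.card F := Subgroup.card_map_dvd _ _
  have key : ∀ A : Subgroup W, F ⊓ A = D → Nat.card (A.map (QuotientGroup.mk' D)) ∣ F.index := by
    intro A hA
    have h1 := card_map_mk D A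
    have h2 := card_map_mk F A
    have h3 : D ⊓ A = D := inf_eq_left.2 (hA ▸ inf_le_right)
    rw [h3] at h1
    rw [hA, ← h1] at h2
    have h4 := Nat.eq_of_mul_eq_mul_right Nat.card_pos h2
    rw [← h4, Subgroup.index_eq_card]
    exact Subgroup.card_subgroup_dvd_card _
  have hcop : ∀ A : Subgroup W, F ⊓ A = D → (Nat.card (F.map (QuotientGroup.mk' D))).Coprime (Nat.card (A.map (QuotientGroup.mk' D))) :=
    fun A hA => Nat.Coprime.coprime_dvd_left hcF (Nat.Coprime.coprime_dvd_right (key A hA) hF)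
  obtain ⟨n, -, hn⟩ := H67.conj_of_sup_eq (F.map (QuotientGroup.mk' D)) (A.map (QuotientGroup.mk' D)) (B.map (QuotientGroup.mk' D))
    (hcop A hA) (hcop B hB) inferInstance (by rw [← Subgroup.map_sup, ← Subgroup.map_sup, hsup])
  exact conj_of_quotient hsol D A B hAB (Or.inl ⟨hDA, hDB⟩) ⟨n, hn.symm⟩

/-- the group `N_G(D)/F` is a Z-group -/
theorem zgroup_normalizer {G : Type u} [Group G] [Finite G] (hB : BP G) (hsol : Group.IsSolvable G) (A B : Subgroup G) (hAB : Nat.card A = Nat.card B)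
    (hno : ∀ N : Subgroup G, N.Normal → N ≠ ⊥ → ¬ ((N ≤ A ∧ N ≤ B) ∨ (Nat.card N).Coprime (Nat.card A)))
    (F : Subgroup G) [hFn : F.Normal] (hFd : F = Cfsg.fittingSubgroup G) (hFc : ∀ a ∈ F, ∀ b ∈ F, a * b = b * a) :
    IsZGroup ((Subgroup.normalizer ((F ⊓ B : Subgroup G) : Set G)).map (QuotientGroup.mk' F)) := by
  obtain ⟨NG, hNG⟩ : ∃ NG : Subgroup G, NG = Subgroup.normalizer ((F ⊓ B : Subgroup G) : Set G) := ⟨_, rfl⟩
  rw [← hNG]
  have hFNG : F ≤ NG := by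
    intro x hx
    rw [hNG, mem_normalizer_iff]
    intro y
    constructor
    · intro hy
      rw [hFc x hx y hy.1, mul_inv_cancel_right]; exact hy
    · intro hy
      have h1 : x * y * x⁻¹ ∈ F := hy.1
      have h2 : y ∈ F := by
        have := F.mul_mem (F.mul_mem (F.inv_mem hx) h1) hx
        have e : x⁻¹ * (x * y * x⁻¹) * x = y := by group
        rwa [e] at this
      rw [hFc x hx y h2, mul_inv_cancel_right] at hy; exact hy
  have hsQ : Group.IsSolvable (G ⧸ F) := inferInstance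
  have hBQ : BP (G ⧸ F) := hB.quotient_solvable hsol F
  have hFcore : ∀ p : ℕ, p.Prime → Cfsg.pCore p G ≤ F := by
    intro p hp
    have : Fact p.Prime := ⟨hp⟩
    rw [hFd]; exact Solv.pCore_le_fitting p
  -- the modules
  let ι := {p : Nat.Primes // Cfsg.pCore (p : ℕ) G ≠ ⊥}
  let V : ι → Type u := fun i => ↥(Cfsg.pCore (i.1 : ℕ) G)
  have hfacts := fun i : ι => core_facts hB hsol A B hAB hno i.1.2 i.2
  letI instV : ∀ i : ι, CommGroup (V i) := fun i =>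
    { (inferInstance : Group ↥(Cfsg.pCore (i.1 : ℕ) G)) with mul_comm := (hfacts i).1.is_comm.comm }
  have hfV : ∀ i : ι, Finite (V i) := fun i => (inferInstance : Finite ↥(Cfsg.pCore (i.1 : ℕ) G))
  obtain ⟨ρ, hρ⟩ : ∃ ρ : ∀ i : ι, (G ⧸ F) →* MulAut (V i), ∀ (i : ι) (g : G) (v : V i),
      ((ρ i (QuotientGroup.mk' F g) v : ↥(Cfsg.pCore (i.1 : ℕ) G)) : G) = g * (v : ↥(Cfsg.pCore (i.1 : ℕ) G)) * g⁻¹ := by
    refine ⟨fun i => QuotientGroup.lift F (MulAut.conjNormal (H := Cfsg.pCore (i.1 : ℕ) G)) ?_, ?_⟩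
    · intro x hx
      ext v
      have h1 : x * (v : G) * x⁻¹ = v := by
        rw [hFc x hx v (hFcore _ i.1.2 v.2), mul_inv_cancel_right]
      exact h1
    · intro i g v
      rfl
  have hord : ∀ (i : ι) (v : ↥(Cfsg.pCore (i.1 : ℕ) G)), v ≠ 1 → orderOf (v : G) = i.1 := by
    intro i v hv
    have h1 : orderOf (v : G) ∣ (i.1 : ℕ) := orderOf_dvd_of_pow_eq_one ((hfacts i).2.1 v v.2)
    exact ((Nat.dvd_prime i.1.2).mp h1).resolve_left (fun h => hv (Subtype.ext (orderOf_eq_one_iff.mp h)))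
  have htr : ∀ i (v w : V i), v ≠ 1 → w ≠ 1 → ∃ k : G ⧸ F, w ∈ zpowers (ρ i k v) := by
    intro i v w hv hw
    obtain ⟨g, hg⟩ := hB (zpowers ((v : ↥(Cfsg.pCore (i.1 : ℕ) G)) : G)) (zpowers ((w : ↥(Cfsg.pCore (i.1 : ℕ) G)) : G)) inferInstance inferInstance
      (by rw [Nat.card_zpowers, Nat.card_zpowers, hord i v hv, hord i w hw])
    refine ⟨QuotientGroup.mk' F g, ?_⟩
    have h1 : ((w : ↥(Cfsg.pCore (i.1 : ℕ) G)) : G) ∈ zpowers ((w : ↥(Cfsg.pCore (i.1 : ℕ) G)) : G) := mem_zpowers _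
    rw [hg] at h1
    obtain ⟨z, ⟨j, hj⟩, hz⟩ := h1
    refine ⟨j, ?_⟩
    apply Subtype.ext
    have h2 : (((ρ i (QuotientGroup.mk' F g) v) ^ j : ↥(Cfsg.pCore (i.1 : ℕ) G)) : G) = (((ρ i (QuotientGroup.mk' F g) v : ↥(Cfsg.pCore (i.1 : ℕ) G)) : G)) ^ j :=
      Subgroup.coe_zpow _ _ _
    change (((ρ i (QuotientGroup.mk' F g) v) ^ j : ↥(Cfsg.pCore (i.1 : ℕ) G)) : G) = _
    rw [h2, hρ, conj_zpow]
    rw [← hz, ← hj]
    rfl
  have hcentF : ∀ g : G, (∀ p : ℕ, p.Prime → ∀ v ∈ Cfsg.pCore p G, g * v * g⁻¹ = v) → g ∈ F := by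
    intro g hg
    have h1 : zpowers g ≤ centralizer (Cfsg.fittingSubgroup G : Set G) := by
      apply le_centralizer_fitting
      intro r hr
      rw [zpowers_le, mem_centralizer_iff]
      intro v hv
      exact (mul_inv_eq_iff_eq_mul.1 (hg r hr v hv)).symm
    rw [hFd]
    exact Solv.centralizer_fitting_le (h1 (mem_zpowers g))
  have hfaith : ∀ q : G ⧸ F, (∀ i (v : V i), ρ i q v = v) → q = 1 := by
    intro q hq
    obtain ⟨g, rfl⟩ := QuotientGroup.mk'_surjective F q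
    have : g ∈ F := by
      apply hcentF
      intro p hp v hv
      by_cases hcore : Cfsg.pCore p G = ⊥
      · rw [hcore, mem_bot] at hv
        rw [hv, mul_one, mul_inv_cancel]
      · have h1 := congrArg Subtype.val (hq ⟨⟨p, hp⟩, hcore⟩ (⟨v, hv⟩ : ↥(Cfsg.pCore p G)))
        have h2 := hρ ⟨⟨p, hp⟩, hcore⟩ g (⟨v, hv⟩ : ↥(Cfsg.pCore p G))
        exact h2.symm.trans h1
    exact (QuotientGroup.eq_one_iff g).2 this
  have hU : ∀ r : ℕ, r.Prime → Cfsg.pCore r (G ⧸ F) ≠ ⊥ → ∃ M : Subgroup (G ⧸ F), M.Normal ∧ Nat.card M = r ∧ ∀ x, orderOf x = r → x ∈ M :=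
    fun r hr hcore => exists_unique_prime hBQ hsQ V ρ htr hfaith hr hcore
  by_cases hcyc : ∀ r : ℕ, r.Prime → IsCyclic (Cfsg.pCore r (G ⧸ F))
  · have hZ : IsZGroup (G ⧸ F) := zgroup_of_cyclic_cores hBQ hsQ hU hcyc
    infer_instance
  push Not at hcyc
  obtain ⟨r₀, hr₀, hnc⟩ := hcyc
  obtain ⟨⟨e⟩, hSyl, hodd⟩ := quat_of_noncyclic_core hBQ hsQ hU hr₀ hnc
  have hcore2 : Cfsg.pCore 2 (G ⧸ F) ≠ ⊥ := by
    intro h
    have h1 : Nat.card (Cfsg.pCore 2 (G ⧸ F)) = 8 := by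
      rw [Nat.card_congr e.toEquiv, Nat.card_eq_fintype_card, QuaternionGroup.card]
    rw [h, Subgroup.card_bot] at h1
    omega
  obtain ⟨M, -, hM, hall⟩ := hU 2 Nat.prime_two hcore2
  apply zgroup_sub M hM hall e hSyl hodd
  intro hle
  -- `O_2` acts by power automorphisms
  have hpow : ∀ g : G, QuotientGroup.mk' F g ∈ Cfsg.pCore 2 (G ⧸ F) → ∀ (i : ι) (v : ↥(Cfsg.pCore (i.1 : ℕ) G)), g * (v : G) * g⁻¹ ∈ zpowers (v : G) := by
    intro g hg i v
    by_cases hv : v = 1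
    · rw [hv]; simp
    have hp : Fact (i.1 : ℕ).Prime := ⟨i.1.2⟩
    obtain ⟨hc1, hc2, hc3, hc4, hc5⟩ := hfacts i
    by_contra hw
    obtain ⟨n, hn⟩ := IsPGroup.iff_card.mp (Solv.pCore_isPGroup (G := G) (i.1 : ℕ))
    obtain ⟨d, hd⟩ := IsPGroup.iff_card.mp ((Solv.pCore_isPGroup (G := G) (i.1 : ℕ)).to_le (inf_le_left : Cfsg.pCore (i.1 : ℕ) G ⊓ B ≤ _))
    have hd1 : 1 ≤ d := by
      rcases Nat.eq_zero_or_pos d with rfl | h
      · rw [pow_zero] at hd
        exact absurd (Subgroup.card_eq_one.1 hd) hc4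
      · exact h
    have hdn : d < n := by
      rw [← Nat.pow_lt_pow_iff_right hp.out.one_lt, ← hd, ← hn]
      apply lt_of_le_of_ne (Subgroup.card_le_of_le inf_le_left)
      intro h
      apply hc5
      have := Subgroup.eq_of_le_of_card_ge (inf_le_left : Cfsg.pCore (i.1 : ℕ) G ⊓ B ≤ _) h.ge
      rw [← this]; exact inf_le_right
    have hwcore : g * (v : G) * g⁻¹ ∈ Cfsg.pCore (i.1 : ℕ) G := (inferInstance : (Cfsg.pCore (i.1 : ℕ) G).Normal).conj_mem _ v.2 g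
    letI : CommGroup ↥(Cfsg.pCore (i.1 : ℕ) G) := instV i
    obtain ⟨X, hX1, hX2, hX3⟩ := exists_sub_avoid (E := ↥(Cfsg.pCore (i.1 : ℕ) G)) i.1.2 (fun x => Subtype.ext (by simpa using hc2 x x.2)) hn hd1 hdn v ⟨_, hwcore⟩ hv (by
      rintro ⟨j, hj⟩
      apply hw
      refine ⟨j, ?_⟩
      have := congrArg Subtype.val hj
      simpa using this)
    obtain ⟨X', hX'⟩ : ∃ X' : Subgroup G, X' = X.map (Cfsg.pCore (i.1 : ℕ) G).subtype := ⟨_, rfl⟩
    have hX'c : ∀ a : G, a ∈ X' → a ∈ Cfsg.pCore (i.1 : ℕ) G := by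
      rw [hX']
      intro a ha
      exact Subgroup.map_subtype_le X ha
    have hX'comm : IsMulCommutative X' := by
      constructor; constructor
      intro a b
      exact Subtype.ext (Solv.comm_of_isMulCommutative hc1 (hX'c a a.2) (hX'c b b.2))
    have hDcomm : IsMulCommutative (Cfsg.pCore (i.1 : ℕ) G ⊓ B : Subgroup G) := by
      constructor; constructor
      intro a b
      exact Subtype.ext (Solv.comm_of_isMulCommutative hc1 a.2.1 b.2.1)
    obtain ⟨c, hc⟩ := hB (Cfsg.pCore (i.1 : ℕ) G ⊓ B) X' hDcomm hX'comm (by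
      rw [hd, hX', Subgroup.card_map_of_injective (Subgroup.subtype_injective _), hX1])
    -- `c⁻¹ g c ∈ N_G(D)`
    have h1 : QuotientGroup.mk' F (c⁻¹ * g * c) ∈ Cfsg.pCore 2 (G ⧸ F) := by
      have := (inferInstance : (Cfsg.pCore 2 (G ⧸ F)).Normal).conj_mem _ hg (QuotientGroup.mk' F c)⁻¹
      rw [inv_inv] at this
      rw [map_mul, map_mul, map_inv]
      exact this
    obtain ⟨m, hm, hm2⟩ := hle h1
    have h2 : c⁻¹ * g * c ∈ NG := by
      have h3 : m⁻¹ * (c⁻¹ * g * c) ∈ F := (QuotientGroup.eq (s := F)).1 hm2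
      have h4 := NG.mul_mem hm (hFNG h3)
      rwa [mul_inv_cancel_left] at h4
    have hvX : (v : G) ∈ X' := by rw [hX']; exact ⟨v, hX2, rfl⟩
    have hwX : g * (v : G) * g⁻¹ ∉ X' := by
      rw [hX']
      rintro ⟨z, hz, hz2⟩
      apply hX3
      have : z = ⟨_, hwcore⟩ := Subtype.ext hz2
      rwa [this] at hz
    apply hwX
    rw [hc] at hvX ⊢
    obtain ⟨y, hy, hyv⟩ := hvX
    have hyv' : c * y * c⁻¹ = v := hyv
    refine ⟨(c⁻¹ * g * c) * y * (c⁻¹ * g * c)⁻¹, ⟨(inferInstance : (Cfsg.pCore (i.1 : ℕ) G).Normal).conj_mem _ hy.1 _, ?_⟩, ?_⟩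
    · rw [hNG, mem_normalizer_iff] at h2
      exact ((h2 y).1 ⟨hFcore _ i.1.2 hy.1, hy.2⟩).2
    · change c * ((c⁻¹ * g * c) * y * (c⁻¹ * g * c)⁻¹) * c⁻¹ = _
      rw [← hyv']
      group
  -- commutativity
  have hNZ : NeZero 2 := ⟨by norm_num⟩
  obtain ⟨x, hx⟩ : ∃ x, x = e.symm (QuaternionGroup.xa 0) := ⟨_, rfl⟩
  obtain ⟨y, hy⟩ : ∃ y, y = e.symm (QuaternionGroup.xa 1) := ⟨_, rfl⟩
  have hxy : x * y ≠ y * x := by
    intro h
    have h1 : (QuaternionGroup.xa 0 : QuaternionGroup 2) * QuaternionGroup.xa 1 = QuaternionGroup.xa 1 * QuaternionGroup.xa 0 := by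
      apply e.symm.injective
      rw [map_mul, map_mul, ← hx, ← hy, h]
    revert h1
    decide
  obtain ⟨gx, hgx⟩ := QuotientGroup.mk'_surjective F (x : G ⧸ F)
  obtain ⟨gy, hgy⟩ := QuotientGroup.mk'_surjective F (y : G ⧸ F)
  apply hxy
  apply Subtype.ext
  have h1 : (gx * gy) * (gy * gx)⁻¹ ∈ F := by
    apply hcentF
    intro p hp v hv
    by_cases hcore : Cfsg.pCore p G = ⊥
    · rw [hcore, mem_bot] at hv
      rw [hv, mul_one, mul_inv_cancel]
    have hN : (Cfsg.pCore p G).Normal := inferInstance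
    have hpx := fun v : ↥(Cfsg.pCore p G) => hpow gx (by rw [hgx]; exact x.2) ⟨⟨p, hp⟩, hcore⟩ v
    have hpy := fun v : ↥(Cfsg.pCore p G) => hpow gy (by rw [hgy]; exact y.2) ⟨⟨p, hp⟩, hcore⟩ v
    have key : ∀ w ∈ Cfsg.pCore p G, (gx * gy) * w * (gx * gy)⁻¹ = (gy * gx) * w * (gy * gx)⁻¹ := by
      intro w hw
      obtain ⟨i, hi⟩ := mem_zpowers_iff.1 (hpx ⟨w, hw⟩)
      obtain ⟨j, hj⟩ := mem_zpowers_iff.1 (hpy ⟨w, hw⟩)
      have e1 : (gx * gy) * w * (gx * gy)⁻¹ = gx * (gy * w * gy⁻¹) * gx⁻¹ := by group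
      have e2 : (gy * gx) * w * (gy * gx)⁻¹ = gy * (gx * w * gx⁻¹) * gy⁻¹ := by group
      have hi' : gx * w * gx⁻¹ = w ^ i := hi.symm
      have hj' : gy * w * gy⁻¹ = w ^ j := hj.symm
      rw [e1, e2, hj', hi', ← conj_zpow, ← conj_zpow, hi', hj', ← zpow_mul, ← zpow_mul, mul_comm]
    have hv' : (gy * gx)⁻¹ * v * (gy * gx) ∈ Cfsg.pCore p G := by
      have := hN.conj_mem v hv (gy * gx)⁻¹
      rwa [inv_inv] at this
    have h2 := key _ hv'
    have e3 : (gy * gx) * ((gy * gx)⁻¹ * v * (gy * gx)) * (gy * gx)⁻¹ = v := by group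
    rw [e3] at h2
    calc (gx * gy) * (gy * gx)⁻¹ * v * ((gx * gy) * (gy * gx)⁻¹)⁻¹ = (gx * gy) * ((gy * gx)⁻¹ * v * (gy * gx)) * (gx * gy)⁻¹ := by group
      _ = v := h2
  have h2 : QuotientGroup.mk' F ((gx * gy) * (gy * gx)⁻¹) = 1 := (QuotientGroup.eq_one_iff _).2 h1
  rw [map_mul, map_inv, mul_inv_eq_one, map_mul, map_mul, hgx, hgy] at h2
  exact h2

end Cfsg.Agent.H14.BC
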