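import Mathlib
import Cfsg.Agent.H14.BC5

set_option autoImplicit false

/-! Solvable groups with (BP): all subgroups of equal order are conjugate (main theorem). -/

namespace Cfsg.Agent.H14.BC

open Subgroup Cfsg.Agent.H65

universe u

theorem solvable_CP : ∀ n : ℕ, ∀ (G : Type u) [Group G] [Finite G], Nat.card G = n → BP G → Group.IsSolvable G → CP G := by
  intro n
  induction n using Nat.strong_induction_on with
  | _ n ih =>
    intro G _ _ hn hB hsol A B hAB
    by_cases hno : ∀ N : Subgroup G, N.Normal → N ≠ ⊥ → ¬ ((N ≤ A ∧ N ≤ B) ∨ (Nat.card N).Coprime (Nat.card A))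
    swap
    · push Not at hno
      obtain ⟨N, hNn, hN1, hcase⟩ := hno
      exact conj_of_CP hsol N (ih _ (hn ▸ card_quot_lt N hN1) (G ⧸ N) rfl (hB.quotient_solvable hsol N) inferInstance) A B hAB hcase
    obtain ⟨F, hFd⟩ : ∃ F, F = Cfsg.fittingSubgroup G := ⟨_, rfl⟩
    have hFn : F.Normal := by rw [hFd]; infer_instance
    have hFcore : ∀ p : ℕ, p.Prime → Cfsg.pCore p G ≤ F := by
      intro p hp
      have : Fact p.Prime := ⟨hp⟩
      rw [hFd]; exact Solv.pCore_le_fitting p
    have hcc : ∀ p : ℕ, p.Prime → IsMulCommutative (Cfsg.pCore p G) := by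
      intro p hp
      by_cases hcore : Cfsg.pCore p G = ⊥
      · rw [hcore]; infer_instance
      · exact (core_facts hB hsol A B hAB hno hp hcore).1
    have hnil : Group.IsNilpotent F := by rw [hFd]; exact Solv.fitting_isNilpotent
    have hsyl : ∀ (p : ℕ) (hp : Fact p.Prime) (T : Sylow p F), (T : Subgroup F).map F.subtype ≤ Cfsg.pCore p G := by
      intro p hp T
      have h1 := sylow_inf_fitting ((T : Subgroup F).map F.subtype) (T.2.map _)
      rw [← hFd, inf_eq_left.2 (Subgroup.map_subtype_le _)] at h1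
      exact h1
    have hFc : ∀ a ∈ F, ∀ b ∈ F, a * b = b * a := by
      intro a ha b hb
      have h1 := comm_of_sylow (W := F) (fun p hp T => inferInstance) (fun p hp T => by
        have h2 := hsyl p hp T
        constructor; constructor
        intro x y
        apply Subtype.ext
        apply Subtype.ext
        exact Solv.comm_of_isMulCommutative (hcc p hp.out) (h2 ⟨x, x.2, rfl⟩) (h2 ⟨y, y.2, rfl⟩)) ⟨a, ha⟩ ⟨b, hb⟩
      exact congrArg Subtype.val h1
    have hFhall : (Nat.card F).Coprime F.index := by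
      apply Nat.coprime_of_dvd
      intro p hp h1 h2
      have hFp : Fact p.Prime := ⟨hp⟩
      obtain ⟨x, hx⟩ := exists_prime_orderOf_dvd_card' p h1
      have hxG : orderOf (x : G) = p := by rw [Subgroup.orderOf_coe, hx]
      have hcore : Cfsg.pCore p G ≠ ⊥ := by
        intro h
        have h3 : IsPGroup p (zpowers (x : G)) := IsPGroup.of_card (n := 1) (by rw [Nat.card_zpowers, hxG, pow_one])
        have h4 := sylow_inf_fitting (zpowers (x : G)) h3 ⟨mem_zpowers _, hFd ▸ x.2⟩
        rw [h, mem_bot] at h4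
        rw [h4, orderOf_one] at hxG
        exact hp.one_lt.ne hxG
      obtain ⟨P⟩ : Nonempty (Sylow p G) := inferInstance
      have h3 := (core_facts hB hsol A B hAB hno hp hcore).2.2.1 P
      have h4 : (P : Subgroup G) ≤ F := by rw [h3]; exact hFcore p hp
      exact P.not_dvd_index (h2.trans (Subgroup.index_dvd_of_le h4))
    -- the intersections with `F`
    have hcA := card_map_mk F A
    have hcB := card_map_mk F B
    have hidx : ∀ X : Subgroup G, Nat.card (X.map (QuotientGroup.mk' F)) ∣ F.index := by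
      intro X
      rw [Subgroup.index_eq_card]
      exact Subgroup.card_subgroup_dvd_card _
    have hFA : Nat.card (F ⊓ A : Subgroup G) = Nat.card (F ⊓ B : Subgroup G) :=
      coprime_unique hFhall.symm (hidx A) (hidx B) (Subgroup.card_dvd_of_le inf_le_left) (Subgroup.card_dvd_of_le inf_le_left)
        (by rw [hcA, hcB, hAB])
    have hcomm : ∀ X : Subgroup G, IsMulCommutative (F ⊓ X : Subgroup G) := by
      intro X
      constructor; constructor
      intro a b
      exact Subtype.ext (hFc a a.2.1 b b.2.1)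
    obtain ⟨g, hg⟩ := hB (F ⊓ A) (F ⊓ B) (hcomm A) (hcomm B) hFA
    have hFconj : ∀ g : G, F.map (MulAut.conj g).toMonoidHom = F := by
      intro g
      apply Subgroup.eq_of_le_of_card_ge
      · rintro _ ⟨x, hx, rfl⟩
        exact hFn.conj_mem x hx g
      · rw [card_map_conj]
    obtain ⟨A₁, hA₁⟩ : ∃ A₁, A₁ = A.map (MulAut.conj g).toMonoidHom := ⟨_, rfl⟩
    have hFA₁ : F ⊓ A₁ = F ⊓ B := by
      rw [hg, Subgroup.map_inf _ _ _ (MulAut.conj g).injective, hFconj, hA₁]
    have hA₁c : Nat.card A₁ = Nat.card B := by rw [hA₁, card_map_conj, hAB]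
    suffices h : ∃ h : G, B = A₁.map (MulAut.conj h).toMonoidHom by
      obtain ⟨h, hh⟩ := h
      exact ⟨h * g, by rw [hh, hA₁, map_conj_map_conj]⟩
    -- the normalizer of the intersection
    have hZ := zgroup_normalizer hB hsol A B hAB hno F hFd hFc
    obtain ⟨NG, hNG⟩ : ∃ NG : Subgroup G, NG = Subgroup.normalizer ((F ⊓ B : Subgroup G) : Set G) := ⟨_, rfl⟩
    rw [← hNG] at hZ
    have hnorm : ∀ X : Subgroup G, F ⊓ X = F ⊓ B → X ≤ NG := by
      intro X hX x hx
      rw [hNG, ← hX, mem_normalizer_iff]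
      intro y
      constructor
      · rintro ⟨h1, h2⟩
        exact ⟨hFn.conj_mem y h1 x, X.mul_mem (X.mul_mem hx h2) (X.inv_mem hx)⟩
      · rintro ⟨h1, h2⟩
        refine ⟨?_, ?_⟩
        · have := hFn.conj_mem _ h1 x⁻¹
          have e : x⁻¹ * (x * y * x⁻¹) * x⁻¹⁻¹ = y := by group
          rwa [e] at this
        · have := X.mul_mem (X.mul_mem (X.inv_mem hx) h2) hx
          have e : x⁻¹ * (x * y * x⁻¹) * x = y := by group
          rwa [e] at this
    have hFNG : F ≤ NG := by
      intro x hx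
      rw [hNG, mem_normalizer_iff]
      intro y
      constructor
      · intro hy
        rw [hFc x hx y hy.1, mul_inv_cancel_right]; exact hy
      · intro hy
        have h1 : x * y * x⁻¹ ∈ F := hy.1
        have h2 : y ∈ F := by
          have := F.mul_mem (F.mul_mem (F.inv_mem hx) h1) hx
          have e : x⁻¹ * (x * y * x⁻¹) * x = y := by group
          rwa [e] at this
        rw [hFc x hx y h2, mul_inv_cancel_right] at hy; exact hy
    have hA₁N : A₁ ≤ NG := hnorm A₁ hFA₁
    have hBN : B ≤ NG := hnorm B rfl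
    obtain ⟨Nb, hNb⟩ : ∃ Nb : Subgroup (G ⧸ F), Nb = NG.map (QuotientGroup.mk' F) := ⟨_, rfl⟩
    rw [← hNb] at hZ
    have hmA : A₁.map (QuotientGroup.mk' F) ≤ Nb := by rw [hNb]; exact Subgroup.map_mono hA₁N
    have hmB : B.map (QuotientGroup.mk' F) ≤ Nb := by rw [hNb]; exact Subgroup.map_mono hBN
    have hcAB : Nat.card (A₁.map (QuotientGroup.mk' F)) = Nat.card (B.map (QuotientGroup.mk' F)) := by
      have h1 := card_map_mk F A₁
      rw [hFA₁, hA₁c, ← hcB] at h1
      exact Nat.eq_of_mul_eq_mul_right Nat.card_pos h1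
    obtain ⟨nb, hnb⟩ := zgroup_CP _ Nb rfl hZ ((A₁.map (QuotientGroup.mk' F)).subgroupOf Nb) ((B.map (QuotientGroup.mk' F)).subgroupOf Nb) (by
      rw [Nat.card_congr (subgroupOfEquivOfLe hmA).toEquiv, Nat.card_congr (subgroupOfEquivOfLe hmB).toEquiv, hcAB])
    obtain ⟨m, hm, hmnb⟩ : ∃ m ∈ NG, QuotientGroup.mk' F m = (nb : G ⧸ F) := by
      have h1 : (nb : G ⧸ F) ∈ NG.map (QuotientGroup.mk' F) := hNb ▸ nb.2
      exact h1
    have hconjQ : B.map (QuotientGroup.mk' F) = (A₁.map (QuotientGroup.mk' F)).map (MulAut.conj (QuotientGroup.mk' F m)).toMonoidHom := by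
      have h1 := congrArg (Subgroup.map Nb.subtype) hnb
      rw [Subgroup.map_subgroupOf_eq_of_le hmB, Subgroup.map_map] at h1
      have h2 : Nb.subtype.comp (MulAut.conj nb).toMonoidHom = (MulAut.conj (QuotientGroup.mk' F m)).toMonoidHom.comp Nb.subtype := by
        ext z
        rw [hmnb]
        rfl
      rw [h2, ← Subgroup.map_map, Subgroup.map_subgroupOf_eq_of_le hmA] at h1
      exact h1
    obtain ⟨A₂, hA₂⟩ : ∃ A₂, A₂ = A₁.map (MulAut.conj m).toMonoidHom := ⟨_, rfl⟩
    have hsup : F ⊔ A₂ = F ⊔ B := by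
      have h1 : B.map (QuotientGroup.mk' F) = A₂.map (QuotientGroup.mk' F) := by
        rw [hconjQ, hA₂, Subgroup.map_map, Subgroup.map_map]
        congr 1
      have h2 := congrArg (Subgroup.comap (QuotientGroup.mk' F)) h1
      rw [Subgroup.comap_map_eq, Subgroup.comap_map_eq, QuotientGroup.ker_mk'] at h2
      rw [sup_comm, ← h2, sup_comm]
    have hDconj : (F ⊓ B).map (MulAut.conj m).toMonoidHom = F ⊓ B := by
      have hm' := hm
      rw [hNG, mem_normalizer_iff] at hm'
      apply Subgroup.eq_of_le_of_card_ge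
      · rintro _ ⟨x, hx, rfl⟩
        exact (hm' x).1 hx
      · rw [card_map_conj]
    have hFA₂ : F ⊓ A₂ = F ⊓ B := by
      rw [← hDconj, ← hFA₁, Subgroup.map_inf _ _ _ (MulAut.conj m).injective, hFconj, hA₂]
    suffices h : ∃ h : G, B = A₂.map (MulAut.conj h).toMonoidHom by
      obtain ⟨h, hh⟩ := h
      exact ⟨h * m, by rw [hh, hA₂, map_conj_map_conj]⟩
    have hA₂N : A₂ ≤ NG := hnorm A₂ hFA₂
    -- work in `NG`
    have hFn' : (F.subgroupOf NG).Normal := inferInstance
    have hDN : F ⊓ B ≤ NG := inf_le_left.trans hFNG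
    have hDn' : ((F ⊓ B).subgroupOf NG).Normal := by
      rw [hNG]
      exact Subgroup.normal_in_normalizer
    have hcardF : Nat.card (F.subgroupOf NG) = Nat.card F := Nat.card_congr (subgroupOfEquivOfLe hFNG).toEquiv
    have hidxF : (F.subgroupOf NG).index ∣ F.index := Subgroup.relIndex_dvd_index_of_normal F NG
    obtain ⟨w, hw⟩ := conj_of_sup (W := NG) inferInstance (F.subgroupOf NG) ((F ⊓ B).subgroupOf NG) (A₂.subgroupOf NG) (B.subgroupOf NG)
      (Subgroup.comap_mono inf_le_left) (by rw [hcardF]; exact Nat.Coprime.coprime_dvd_right hidxF hFhall)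
      (by rw [← hFA₂]; rfl) rfl
      (by rw [Nat.card_congr (subgroupOfEquivOfLe hA₂N).toEquiv, Nat.card_congr (subgroupOfEquivOfLe hBN).toEquiv, hA₂, card_map_conj, hA₁c])
      (by rw [← Subgroup.subgroupOf_sup hFNG hA₂N, ← Subgroup.subgroupOf_sup hFNG hBN, hsup])
    refine ⟨w, ?_⟩
    have h1 := congrArg (Subgroup.map NG.subtype) hw
    rw [Subgroup.map_subgroupOf_eq_of_le hBN, Subgroup.map_map] at h1
    have h2 : NG.subtype.comp (MulAut.conj w).toMonoidHom = (MulAut.conj (w : G)).toMonoidHom.comp NG.subtype := by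
      ext z
      rfl
    rw [h2, ← Subgroup.map_map, Subgroup.map_subgroupOf_eq_of_le hA₂N] at h1
    exact h1

end Cfsg.Agent.H14.BC
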