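import Mathlib

set_option autoImplicit false

/-! Galois descent and normal bases: a semilinear representation is free. -/

namespace Cfsg.Agent.H14.FF

open Module

/-- `U` is a free module over the group acting by `τ` -/
def PU {k V H : Type*} [Field k] [AddCommGroup V] [Module k V] [Group H] (τ : Representation k H V) (U : Submodule k V) : Prop :=
  ∃ W : Submodule k V, (⨆ h, W.map (τ h)) = U ∧ Nat.card H * finrank k W = finrank k U

/-- a semilinear representation of `H₁` over a field on which `H₁` acts faithfully -/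
theorem galois_free {k L V H₁ : Type*} [Field k] [Field L] [Algebra k L] [AddCommGroup V] [Module k V] [Module L V] [IsScalarTower k L V]
    [FiniteDimensional k V] [Group H₁] [Finite H₁] [MulSemiringAction H₁ L] [FaithfulSMul H₁ L]
    (τ : Representation k H₁ V) (hsemi : ∀ (h : H₁) (a : L) (v : V), τ h (a • v) = (h • a) • τ h v)
    (hgen : (⊤ : Submodule L V) ≤ Submodule.span L {w : V | ∀ h, τ h w = w}) : PU τ ⊤ := by
  classical
  let i0 : Fintype H₁ := Fintype.ofFinite H₁
  obtain ⟨θ, hθ⟩ : ∃ θ : L, ∃ N : Basis H₁ (FixedPoints.subfield H₁ L) L, ∀ h, N h = h • θ := by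
    let N₀ := IsGalois.normalBasis (FixedPoints.subfield H₁ L) L
    refine ⟨N₀ 1, N₀.reindex (FixedPoints.toAlgAutMulEquiv H₁ L).symm.toEquiv, fun h => ?_⟩
    rw [Basis.reindex_apply]
    rw [IsGalois.normalBasis_apply]
    rfl
  obtain ⟨N, hN⟩ := hθ
  have hθ0 : θ ≠ 0 := by
    have := N.ne_zero 1
    rw [hN, one_smul] at this
    exact this
  let V₀ : Submodule k V :=
    { carrier := {w | ∀ h, τ h w = w}
      add_mem' := fun {a b} ha hb h => by rw [map_add, ha h, hb h]
      zero_mem' := fun h => map_zero _
      smul_mem' := fun c {x} hx h => by rw [map_smul, hx h] }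
  have hV₀ : ∀ w, w ∈ V₀ ↔ ∀ h, τ h w = w := fun w => Iff.rfl
  have hK : ∀ (c : FixedPoints.subfield H₁ L) w, w ∈ V₀ → (c : L) • w ∈ V₀ := by
    intro c w hw h
    rw [hsemi, hw h]
    congr 1
    exact c.2 h
  have : FiniteDimensional L V := Module.Finite.of_restrictScalars_finite k L V
  let b := Basis.ofSpan hgen
  have hb : ∀ i, b i ∈ V₀ := fun i => Basis.ofSpan_subset hgen ⟨i, rfl⟩
  let i1 : Fintype ((linearIndepOn_empty L id).extend (Set.empty_subset {w : V | ∀ h, τ h w = w})) := FiniteDimensional.fintypeBasisIndex b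
  -- coordinates of vectors in `V₀`
  have hcoord : ∀ w ∈ V₀, ∀ i, ∃ c : FixedPoints.subfield H₁ L, (c : L) = b.repr w i := by
    intro w hw i
    refine ⟨⟨b.repr w i, fun h => ?_⟩, rfl⟩
    have h1 : ∑ j, (h • (b.repr w j)) • b j = w := by
      calc ∑ j, (h • (b.repr w j)) • b j = τ h (∑ j, b.repr w j • b j) := by
            rw [map_sum]
            refine Finset.sum_congr rfl fun j _ => ?_
            rw [hsemi, hb j h]
        _ = w := by rw [b.sum_repr]; exact hw h
    have h2 := congrArg (fun z => b.repr z i) h1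
    beta_reduce at h2
    rw [b.repr_sum_self] at h2
    exact h2
  -- the map
  let Φ : (H₁ → V₀) →ₗ[k] V :=
    { toFun := fun w => ∑ h, (h • θ) • ((w h : V₀) : V)
      map_add' := fun w w' => by
        rw [← Finset.sum_add_distrib]
        refine Finset.sum_congr rfl fun h _ => ?_
        rw [Pi.add_apply, Submodule.coe_add, smul_add]
      map_smul' := fun c w => by
        rw [RingHom.id_apply, Finset.smul_sum]
        refine Finset.sum_congr rfl fun h _ => ?_
        rw [Pi.smul_apply, Submodule.coe_smul, smul_comm] }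
  have hΦ : ∀ w, Φ w = ∑ h, (h • θ) • ((w h : V₀) : V) := fun w => rfl
  have hinj : Function.Injective Φ := by
    rw [injective_iff_map_eq_zero]
    intro w hw
    have hc := fun h i => hcoord (w h) (w h).2 i
    choose c hc using hc
    have h1 : ∀ i, ∑ h, (c h i) • N h = 0 := by
      intro i
      have h2 := congrArg (fun z => b.repr z i) hw
      beta_reduce at h2
      rw [hΦ, map_sum, Finsupp.finsetSum_apply, map_zero, Finsupp.zero_apply] at h2
      rw [← h2]
      refine Finset.sum_congr rfl fun h _ => ?_
      rw [map_smul, Finsupp.smul_apply, ← hc, hN, smul_eq_mul, mul_comm]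
      rfl
    funext h
    apply Subtype.ext
    apply b.repr.injective
    ext i
    rw [← hc]
    have h3 := Fintype.linearIndependent_iff.1 N.linearIndependent (fun h => c h i) (h1 i) h
    rw [h3]
    simp
  have hsurj : Function.Surjective Φ := by
    intro v
    refine ⟨fun h => ⟨∑ i, ((N.repr (b.repr v i) h : FixedPoints.subfield H₁ L) : L) • b i, Submodule.sum_mem _ fun i _ => hK _ _ (hb i)⟩, ?_⟩
    rw [hΦ]
    simp only
    calc ∑ h, (h • θ) • ∑ i, ((N.repr (b.repr v i) h : FixedPoints.subfield H₁ L) : L) • b i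
        = ∑ i, (∑ h, (N.repr (b.repr v i) h) • N h) • b i := by
          simp only [Finset.smul_sum, Finset.sum_smul]
          rw [Finset.sum_comm]
          refine Finset.sum_congr rfl fun i _ => Finset.sum_congr rfl fun h _ => ?_
          rw [smul_smul, hN, mul_comm]
          rfl
      _ = v := by
          simp only [N.sum_repr]
          exact b.sum_repr v
  let m : V →ₗ[k] V :=
    { toFun := fun v => θ • v
      map_add' := fun a b => smul_add _ _ _
      map_smul' := fun c a => by rw [RingHom.id_apply, smul_comm] }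
  have hm : Function.Injective m := fun a b h => smul_right_injective V hθ0 h
  refine ⟨V₀.map m, ?_, ?_⟩
  · rw [eq_top_iff]
    intro v _
    obtain ⟨w, rfl⟩ := hsurj v
    rw [hΦ]
    apply Submodule.sum_mem
    intro h _
    apply Submodule.mem_iSup_of_mem h
    refine ⟨θ • ((w h : V₀) : V), ⟨(w h : V), (w h).2, rfl⟩, ?_⟩
    rw [hsemi, (w h).2 h]
  · have h1 := (LinearEquiv.ofBijective Φ ⟨hinj, hsurj⟩).finrank_eq
    have h2 := (Submodule.equivMapOfInjective m hm V₀).finrank_eq
    rw [finrank_top, ← h1, Module.finrank_pi_fintype, Finset.sum_const, smul_eq_mul, Finset.card_univ, Nat.card_eq_fintype_card, ← h2]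

end Cfsg.Agent.H14.FF
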