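import Mathlib
import Cfsg.Agent.H14.FF1

set_option autoImplicit false

/-! Freeness: extensions, and the homogeneous components of an abelian group. -/

namespace Cfsg.Agent.H14.FF

open Module MonoidAlgebra

section ext
variable {k V H : Type*} [Field k] [AddCommGroup V] [Module k V] [FiniteDimensional k V] [Group H] [Finite H]

theorem PU_ext (τ : Representation k H V) (U : Submodule k V) (hU : ∀ h : H, U ≤ U.comap (τ h)) (h1 : PU τ U)
    (h2 : PU (τ.quotient U hU) ⊤) : PU τ ⊤ := by
  obtain ⟨W₁, hW₁, hd₁⟩ := h1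
  obtain ⟨W₂, hW₂, hd₂⟩ := h2
  obtain ⟨s, hs⟩ := LinearMap.exists_rightInverse_of_surjective U.mkQ (LinearMap.range_eq_top.2 U.mkQ_surjective)
  have hs' : ∀ x, U.mkQ (s x) = x := fun x => LinearMap.congr_fun hs x
  have hsinj : Function.Injective s := fun a b h => by rw [← hs' a, ← hs' b, h]
  have hW₁U : W₁ ≤ U := by
    rw [← hW₁]
    intro w hw
    refine Submodule.mem_iSup_of_mem 1 ⟨w, hw, ?_⟩
    rw [map_one]; rfl
  refine ⟨W₁ ⊔ W₂.map s, ?_, ?_⟩
  · obtain ⟨T, hT⟩ : ∃ T, T = ⨆ h, (W₁ ⊔ W₂.map s).map (τ h) := ⟨_, rfl⟩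
    rw [← hT]
    have hUT : U ≤ T := by
      rw [← hW₁, hT]; exact iSup_mono fun h => Submodule.map_mono le_sup_left
    have h3 : ∀ x, ∃ t ∈ T, U.mkQ t = x := by
      have h4 : (⊤ : Submodule k (V ⧸ U)) ≤ T.map U.mkQ := by
        rw [← hW₂]
        apply iSup_le
        intro h
        rintro _ ⟨w, hw, rfl⟩
        refine ⟨τ h (s w), ?_, ?_⟩
        · rw [hT]
          exact Submodule.mem_iSup_of_mem h ⟨s w, (le_sup_right : W₂.map s ≤ _) ⟨w, hw, rfl⟩, rfl⟩
        · have h5 : (τ.quotient U hU) h (U.mkQ (s w)) = U.mkQ (τ h (s w)) := rfl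
          rw [← h5, hs']
      intro x
      exact h4 (Submodule.mem_top (x := x))
    rw [eq_top_iff]
    intro v _
    obtain ⟨t, ht, htv⟩ := h3 (U.mkQ v)
    have h4 : v - t ∈ U := by
      rw [← Submodule.Quotient.mk_eq_zero, Submodule.Quotient.mk_sub, sub_eq_zero]
      exact htv.symm
    have : v = t + (v - t) := by abel
    rw [this]
    exact T.add_mem ht (hUT h4)
  · have h3 := Submodule.finrank_sup_add_finrank_inf_eq W₁ (W₂.map s)
    have h4 : W₁ ⊓ W₂.map s = ⊥ := by
      rw [eq_bot_iff]
      rintro _ ⟨hx, ⟨w, hw, rfl⟩⟩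
      have h5 : U.mkQ (s w) = 0 := (Submodule.Quotient.mk_eq_zero U).2 (hW₁U hx)
      rw [hs'] at h5
      rw [h5, map_zero]; exact Submodule.zero_mem _
    rw [h4, finrank_bot, add_zero] at h3
    have h5 := (Submodule.equivMapOfInjective s hsinj W₂).finrank_eq
    have h6 := Submodule.finrank_quotient_add_finrank U
    rw [finrank_top] at hd₂
    rw [finrank_top, h3, ← h5, mul_add, hd₁, hd₂, ← h6, add_comm]

end ext

section alg
variable {k Z H : Type*} [Field k] [CommGroup Z] [Group H] (φ : H →* MulAut Z)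

/-- the action on the group algebra -/
noncomputable def al (k : Type*) [Field k] {Z H : Type*} [CommGroup Z] [Group H] (φ : H →* MulAut Z) (h : H) :
    MonoidAlgebra k Z ≃ₐ[k] MonoidAlgebra k Z := MonoidAlgebra.domCongr k k (φ h)

theorem al_of (h : H) (z : Z) : al k φ h (of k Z z) = of k Z (φ h z) := by
  rw [al, of_apply, MonoidAlgebra.domCongr_single, of_apply]

theorem al_mul (h h' : H) (s : MonoidAlgebra k Z) : al k φ (h * h') s = al k φ h (al k φ h' s) := by
  induction s using MonoidAlgebra.induction_on with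
  | of z => rw [al_of, al_of, al_of, map_mul, MulAut.mul_apply]
  | add a b ha hb => simp only [map_add, ha, hb]
  | smul c a ha => simp only [map_smul, ha]

theorem al_one (s : MonoidAlgebra k Z) : al k φ 1 s = s := by
  induction s using MonoidAlgebra.induction_on with
  | of z => rw [al_of, map_one, MulAut.one_apply]
  | add a b ha hb => simp only [map_add, ha, hb]
  | smul c a ha => simp only [map_smul, ha]

theorem tau_act {V : Type*} [AddCommGroup V] [Module k V] (τ : Representation k H V) (σ : Representation k Z V)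
    (hc : ∀ h z v, τ h (σ z v) = σ (φ h z) (τ h v)) (h : H) (s : MonoidAlgebra k Z) (v : V) :
    τ h (σ.asAlgebraHom s v) = σ.asAlgebraHom (al k φ h s) (τ h v) := by
  induction s using MonoidAlgebra.induction_on with
  | of z => rw [al_of, Representation.asAlgebraHom_of, Representation.asAlgebraHom_of, hc]
  | add a b ha hb => simp only [map_add, LinearMap.add_apply, ha, hb]
  | smul c a ha => simp only [map_smul, LinearMap.smul_apply, ha]

/-- the component killed by the ideal `I` -/
def VI {V : Type*} [AddCommGroup V] [Module k V] (σ : Representation k Z V) (I : Ideal (MonoidAlgebra k Z)) : Submodule k V where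
  carrier := {v | ∀ s ∈ I, σ.asAlgebraHom s v = 0}
  add_mem' := fun {a b} ha hb s hs => by rw [map_add, ha s hs, hb s hs, add_zero]
  zero_mem' := fun s _ => map_zero _
  smul_mem' := fun c {x} hx s hs => by rw [map_smul, hx s hs, smul_zero]

/-- the stabilizer of the ideal `I` -/
def St (I : Ideal (MonoidAlgebra k Z)) : Subgroup H where
  carrier := {h | ∀ s, al k φ h s ∈ I ↔ s ∈ I}
  mul_mem' := fun {a b} ha hb s => by rw [al_mul, ha, hb]
  one_mem' := fun s => by rw [al_one]
  inv_mem' := fun {a} ha s => by rw [← ha, ← al_mul, mul_inv_cancel, al_one]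

theorem mem_St (I : Ideal (MonoidAlgebra k Z)) (h : H) : h ∈ St φ I ↔ ∀ s, al k φ h s ∈ I ↔ s ∈ I := Iff.rfl

/-- the action of the stabilizer on the residue field -/
@[reducible]
noncomputable def actL (I : Ideal (MonoidAlgebra k Z)) : MulSemiringAction (St φ I) (MonoidAlgebra k Z ⧸ I) where
  smul h a := Ideal.quotientMap I ((al k φ (h : H) : MonoidAlgebra k Z ≃ₐ[k] MonoidAlgebra k Z) : MonoidAlgebra k Z →+* MonoidAlgebra k Z)
    (fun s hs => (h.2 s).2 hs) a
  one_smul a := by
    obtain ⟨s, rfl⟩ := Ideal.Quotient.mk_surjective a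
    change Ideal.Quotient.mk I (al k φ 1 s) = _
    rw [al_one]
  mul_smul h h' a := by
    obtain ⟨s, rfl⟩ := Ideal.Quotient.mk_surjective a
    change Ideal.Quotient.mk I (al k φ ((h : H) * h') s) = Ideal.Quotient.mk I (al k φ h (al k φ h' s))
    rw [al_mul]
  smul_zero h := map_zero _
  smul_add h a b := map_add _ a b
  smul_one h := map_one _
  smul_mul h a b := map_mul _ a b

end alg

end Cfsg.Agent.H14.FF
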