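import Mathlib
import Cfsg.Agent.H14.FF2

set_option autoImplicit false

/-! The homogeneous components are free over their stabilizers. -/

namespace Cfsg.Agent.H14.FF

open Module MonoidAlgebra

section
variable {k V Z H : Type*} [Field k] [AddCommGroup V] [Module k V] [FiniteDimensional k V] [CommGroup Z] [Finite Z] [Group H] [Finite H]
  (τ : Representation k H V) (σ : Representation k Z V) (φ : H →* MulAut Z)

/-- the algebra map to the endomorphisms of `VI` -/
noncomputable def fI (I : Ideal (MonoidAlgebra k Z)) : MonoidAlgebra k Z →ₐ[k] Module.End k (VI σ I) where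
  toFun s := (σ.asAlgebraHom s).restrict (p := VI σ I) (q := VI σ I) (fun v hv t ht => by
    rw [← Module.End.mul_apply, ← map_mul, mul_comm, map_mul, Module.End.mul_apply, hv t ht, map_zero])
  map_one' := by ext v; simp [LinearMap.restrict_apply]
  map_mul' s t := by
    ext v
    change σ.asAlgebraHom (s * t) v = σ.asAlgebraHom s (σ.asAlgebraHom t v)
    rw [map_mul]; rfl
  map_zero' := by ext v; simp [LinearMap.restrict_apply]
  map_add' s t := by
    ext v
    change σ.asAlgebraHom (s + t) v = σ.asAlgebraHom s v + σ.asAlgebraHom t v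
    rw [map_add]; rfl
  commutes' c := by ext v; simp [LinearMap.restrict_apply]

theorem fI_apply (I : Ideal (MonoidAlgebra k Z)) (s : MonoidAlgebra k Z) (v : VI σ I) : ((fI σ I s v : VI σ I) : V) = σ.asAlgebraHom s v := rfl

/-- the algebra map from the residue field -/
noncomputable def gI (I : Ideal (MonoidAlgebra k Z)) : (MonoidAlgebra k Z ⧸ I) →ₐ[k] Module.End k (VI σ I) :=
  Ideal.Quotient.liftₐ I (fI σ I) (fun s hs => by ext v; rw [fI_apply]; exact v.2 s hs)

theorem gI_mk (I : Ideal (MonoidAlgebra k Z)) (s : MonoidAlgebra k Z) (v : VI σ I) : ((gI σ I (Ideal.Quotient.mk I s) v : VI σ I) : V) = σ.asAlgebraHom s v := rfl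

include τ φ in
theorem free_stab (hc : ∀ h z v, τ h (σ z v) = σ (φ h z) (τ h v)) (hfpf : ∀ h, h ≠ 1 → ∀ z, φ h z = z → z = 1)
    (hk : (Nat.card Z : k) ≠ 0) (hC : ∀ v, (∀ z, σ z v = v) → v = 0) (I : Ideal (MonoidAlgebra k Z)) (hI : I.IsMaximal) (hne : VI σ I ≠ ⊥) :
    ∃ W : Submodule k V, (⨆ h : St φ I, W.map (τ h)) = VI σ I ∧ Nat.card (St φ I) * finrank k W = finrank k (VI σ I) := by
  classical
  let i0 : Fintype H := Fintype.ofFinite H
  let i1 : Fintype Z := Fintype.ofFinite Z
  let i2 : Fintype (St φ I) := Fintype.ofFinite _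
  let F1 : Field (MonoidAlgebra k Z ⧸ I) := Ideal.Quotient.field I
  let M1 : Module (MonoidAlgebra k Z ⧸ I) (VI σ I) := Module.compHom (VI σ I) (gI σ I).toRingHom
  have hM1 : ∀ (a : MonoidAlgebra k Z ⧸ I) (v : VI σ I), a • v = gI σ I a v := fun a v => rfl
  let A1 : MulSemiringAction (St φ I) (MonoidAlgebra k Z ⧸ I) := actL φ I
  have hA1 : ∀ (h : St φ I) (s : MonoidAlgebra k Z), h • (Ideal.Quotient.mk I s) = Ideal.Quotient.mk I (al k φ h s) := fun h s => rfl
  have hT1 : IsScalarTower k (MonoidAlgebra k Z ⧸ I) (VI σ I) := ⟨fun c a v => by rw [hM1, hM1, map_smul]; rfl⟩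
  -- the bijection `z ↦ z⁻¹ φ_h z`
  have hbij : ∀ h : H, h ≠ 1 → Function.Bijective (fun z : Z => z⁻¹ * φ h z) := by
    intro h hh
    rw [Finite.injective_iff_bijective.symm]
    intro z w hzw
    have h1 : φ h (z * w⁻¹) = z * w⁻¹ := by
      have h2 : z⁻¹ * φ h z = w⁻¹ * φ h w := hzw
      rw [map_mul, map_inv, mul_inv_eq_iff_eq_mul]
      calc φ h z = z * (z⁻¹ * φ h z) := by group
        _ = z * (w⁻¹ * φ h w) := by rw [h2]
        _ = z * w⁻¹ * φ h w := by group
    exact mul_inv_eq_one.1 (hfpf h hh _ h1)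
  have hsum0 : ∀ w : V, ∑ y : Z, σ y w = 0 := by
    intro w
    apply hC
    intro z
    rw [map_sum]
    apply Fintype.sum_equiv (Equiv.mulLeft z)
    intro y
    rw [← Module.End.mul_apply, ← map_mul]
    rfl
  -- faithfulness
  have hfaith : FaithfulSMul (St φ I) (MonoidAlgebra k Z ⧸ I) := by
    refine ⟨fun {h h'} heq => ?_⟩
    by_contra hne'
    have h1 : (h'⁻¹ * h : St φ I) ≠ 1 := fun h1 => hne' (inv_mul_eq_one.1 h1).symm
    have h1' : ((h'⁻¹ * h : St φ I) : H) ≠ 1 := fun h2 => h1 (Subtype.ext h2)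
    have h2 : ∀ a : MonoidAlgebra k Z ⧸ I, (h'⁻¹ * h) • a = a := fun a => by rw [mul_smul, heq, ← mul_smul, inv_mul_cancel, one_smul]
    apply hne
    rw [eq_bot_iff]
    intro v hv
    rw [Submodule.mem_bot]
    apply hC
    intro y
    obtain ⟨z, hz⟩ := (hbij _ h1').surjective y
    have h3 := h2 (Ideal.Quotient.mk I (of k Z z))
    rw [hA1, al_of, Ideal.Quotient.eq] at h3
    have h4 : of k Z y - 1 ∈ I := by
      have h5 := I.mul_mem_left (of k Z z⁻¹) h3
      rw [mul_sub, ← map_mul, ← map_mul, inv_mul_cancel, map_one] at h5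
      rw [← hz]
      exact h5
    have h5 := hv _ h4
    rw [map_sub, Representation.asAlgebraHom_of, map_one, LinearMap.sub_apply, sub_eq_zero] at h5
    exact h5
  -- the representation of the stabilizer
  have hinv : ∀ h : St φ I, ∀ v ∈ VI σ I, τ h v ∈ VI σ I := by
    intro h v hv s hs
    have h1 : s = al k φ h (al k φ (h : H)⁻¹ s) := by rw [← al_mul, mul_inv_cancel, al_one]
    rw [h1, ← tau_act φ τ σ hc, hv (al k φ (h : H)⁻¹ s) (((h⁻¹ : St φ I).2 s).2 hs), map_zero]
  let τI : Representation k (St φ I) (VI σ I) := Representation.subrepresentation (τ.comp (St φ I).subtype) (VI σ I) hinv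
  have hτI : ∀ (h : St φ I) (v : VI σ I), ((τI h v : VI σ I) : V) = τ h v := fun h v => rfl
  have hsemi : ∀ (h : St φ I) (a : MonoidAlgebra k Z ⧸ I) (v : VI σ I), τI h (a • v) = (h • a) • τI h v := by
    intro h a v
    obtain ⟨s, rfl⟩ := Ideal.Quotient.mk_surjective a
    apply Subtype.ext
    rw [hτI, hM1, gI_mk, hA1, hM1, gI_mk, hτI, tau_act φ τ σ hc]
  have hgen : (⊤ : Submodule (MonoidAlgebra k Z ⧸ I) (VI σ I)) ≤ Submodule.span (MonoidAlgebra k Z ⧸ I) {w : VI σ I | ∀ h, τI h w = w} := by
    intro v _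
    -- the traces
    let tr : VI σ I → VI σ I := fun w => ∑ h, τI h w
    have htr : ∀ w, tr w ∈ {w : VI σ I | ∀ h, τI h w = w} := by
      intro w h
      change τI h (∑ g, τI g w) = ∑ g, τI g w
      rw [map_sum]
      apply Fintype.sum_equiv (Equiv.mulLeft h)
      intro g
      rw [← Module.End.mul_apply, ← map_mul]
      rfl
    have h1 : v = (algebraMap k (MonoidAlgebra k Z ⧸ I) (Nat.card Z : k)⁻¹) • ∑ z : Z, (Ideal.Quotient.mk I (of k Z z⁻¹)) • tr ((Ideal.Quotient.mk I (of k Z z)) • v) := by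
      have h2 : ∑ z : Z, (Ideal.Quotient.mk I (of k Z z⁻¹)) • tr ((Ideal.Quotient.mk I (of k Z z)) • v) = (Nat.card Z : k) • v := by
        apply Subtype.ext
        rw [Submodule.coe_sum]
        have h3 : ∀ z : Z, (((Ideal.Quotient.mk I (of k Z z⁻¹)) • tr ((Ideal.Quotient.mk I (of k Z z)) • v) : VI σ I) : V) =
            ∑ h : St φ I, σ (z⁻¹ * φ h z) (τ h v) := by
          intro z
          rw [hM1, gI_mk, Representation.asAlgebraHom_of]
          change σ z⁻¹ ((∑ g, τI g ((Ideal.Quotient.mk I (of k Z z)) • v) : VI σ I) : V) = _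
          rw [Submodule.coe_sum, map_sum]
          refine Finset.sum_congr rfl fun h _ => ?_
          rw [hτI, hM1, gI_mk, Representation.asAlgebraHom_of, hc, map_mul, Module.End.mul_apply]
        simp only [h3]
        rw [Finset.sum_comm, Finset.sum_eq_single (1 : St φ I)]
        · have h4 : ∀ z : Z, σ (z⁻¹ * φ ((1 : St φ I) : H) z) (τ ((1 : St φ I) : H) (v : V)) = v := by
            intro z
            rw [OneMemClass.coe_one, map_one, MulAut.one_apply, inv_mul_cancel, map_one, map_one]
            rfl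
          simp only [h4]
          rw [Finset.sum_const, Finset.card_univ, ← Nat.card_eq_fintype_card, ← Nat.cast_smul_eq_nsmul k]
          rfl
        · intro h _ hh
          have hh' : (h : H) ≠ 1 := fun h2 => hh (Subtype.ext h2)
          rw [← hsum0 (τ h v)]
          exact (hbij h hh').sum_comp (fun y => σ y (τ h (v : V)))
        · intro h; exact absurd (Finset.mem_univ _) h
      rw [h2, algebraMap_smul, smul_smul, inv_mul_cancel₀ hk, one_smul]
    rw [h1]
    apply Submodule.smul_mem
    apply Submodule.sum_mem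
    intro z _
    apply Submodule.smul_mem
    exact Submodule.subset_span (htr _)
  obtain ⟨W₁, hW₁, hd⟩ := galois_free τI hsemi hgen
  refine ⟨W₁.map (VI σ I).subtype, ?_, ?_⟩
  · have h1 : ∀ h : St φ I, (W₁.map (VI σ I).subtype).map (τ h) = (W₁.map (τI h)).map (VI σ I).subtype := by
      intro h
      rw [← Submodule.map_comp, ← Submodule.map_comp]
      rfl
    simp only [h1]
    rw [← Submodule.map_iSup, hW₁, Submodule.map_top, Submodule.range_subtype]
  · have h1 := (Submodule.equivMapOfInjective (VI σ I).subtype (VI σ I).injective_subtype W₁).finrank_eq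
    rw [← h1, hd, finrank_top]

end

end Cfsg.Agent.H14.FF
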