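import Mathlib
import Cfsg.Agent.H14.FF3

set_option autoImplicit false

/-! Freeness for an abelian kernel. -/

namespace Cfsg.Agent.H14.FF

open Module MonoidAlgebra

section
variable {k V Z H : Type*} [Field k] [AddCommGroup V] [Module k V] [FiniteDimensional k V] [CommGroup Z] [Finite Z] [Group H] [Finite H]
  (τ : Representation k H V) (σ : Representation k Z V) (φ : H →* MulAut Z)

theorem free_orbit (hc : ∀ h z v, τ h (σ z v) = σ (φ h z) (τ h v)) (I : Ideal (MonoidAlgebra k Z)) (hI : I.IsMaximal)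
    (hW : ∃ W : Submodule k V, (⨆ h : St φ I, W.map (τ h)) = VI σ I ∧ Nat.card (St φ I) * finrank k W = finrank k (VI σ I)) :
    PU τ (⨆ h, (VI σ I).map (τ h)) := by
  classical
  obtain ⟨W, hW1, hW2⟩ := hW
  let i0 : Fintype (H ⧸ St φ I) := Fintype.ofFinite _
  obtain ⟨J, hJ⟩ : ∃ J : (H ⧸ St φ I) → Ideal (MonoidAlgebra k Z), ∀ c s, s ∈ J c ↔ al k φ (Quotient.out c)⁻¹ s ∈ I :=
    ⟨fun c => I.comap ((al k φ (Quotient.out c)⁻¹ : MonoidAlgebra k Z ≃ₐ[k] MonoidAlgebra k Z) : MonoidAlgebra k Z →+* MonoidAlgebra k Z), fun c s => Iff.rfl⟩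
  have hJm : ∀ c, (J c).IsMaximal := by
    intro c
    have h1 : J c = I.comap (al k φ (Quotient.out c)⁻¹) := by
      ext s; rw [hJ]; rfl
    rw [h1]
    exact Ideal.comap_isMaximal_of_equiv _
  have hJne : ∀ c d, c ≠ d → J c ≠ J d := by
    intro c d hcd h
    apply hcd
    have h1 : (Quotient.out c)⁻¹ * Quotient.out d ∈ St φ I := by
      rw [mem_St]
      intro s
      rw [al_mul, ← hJ, h, hJ, ← al_mul, inv_mul_cancel, al_one]
    have h2 := QuotientGroup.eq.2 h1
    rw [QuotientGroup.out_eq', QuotientGroup.out_eq'] at h2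
    exact h2
  have hs : ∀ c, ∃ s, s ∈ (⨅ d ∈ Finset.univ.erase c, J d) ∧ s - 1 ∈ J c := by
    intro c
    have h1 : J c ⊔ (⨅ d ∈ Finset.univ.erase c, J d) = ⊤ := by
      apply Ideal.sup_iInf_eq_top
      intro d hd
      exact Ideal.IsMaximal.coprime_of_ne (hJm c) (hJm d) (hJne c d (Finset.ne_of_mem_erase hd).symm)
    have h2 : (1 : MonoidAlgebra k Z) ∈ J c ⊔ (⨅ d ∈ Finset.univ.erase c, J d) := by rw [h1]; trivial
    obtain ⟨a, ha, s, hs, has⟩ := Submodule.mem_sup.1 h2
    refine ⟨s, hs, ?_⟩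
    have : s - 1 = -a := by rw [← has]; ring
    rw [this]
    exact (J c).neg_mem ha
  have hkill : ∀ c (v : V), v ∈ VI σ I → ∀ s ∈ J c, σ.asAlgebraHom s (τ (Quotient.out c) v) = 0 := by
    intro c v hv s hs
    have h1 : s = al k φ (Quotient.out c) (al k φ (Quotient.out c)⁻¹ s) := by rw [← al_mul, mul_inv_cancel, al_one]
    rw [h1, ← tau_act φ τ σ hc, hv _ ((hJ c s).1 hs), map_zero]
  have hτinj : ∀ h : H, Function.Injective (τ h) := by
    intro h v w hvw
    have : τ h⁻¹ (τ h v) = τ h⁻¹ (τ h w) := by rw [hvw]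
    rw [← Module.End.mul_apply, ← Module.End.mul_apply, ← map_mul, inv_mul_cancel, map_one] at this
    exact this
  let Ψ : ((H ⧸ St φ I) → VI σ I) →ₗ[k] V :=
    { toFun := fun v => ∑ c : H ⧸ St φ I, τ (Quotient.out c) ((v c : VI σ I) : V)
      map_add' := fun v w => by
        rw [← Finset.sum_add_distrib]
        refine Finset.sum_congr rfl fun c _ => ?_
        rw [Pi.add_apply, Submodule.coe_add, map_add]
      map_smul' := fun a v => by
        rw [RingHom.id_apply, Finset.smul_sum]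
        refine Finset.sum_congr rfl fun c _ => ?_
        rw [Pi.smul_apply, Submodule.coe_smul, map_smul] }
  have hΨ : ∀ v, Ψ v = ∑ c : H ⧸ St φ I, τ (Quotient.out c) ((v c : VI σ I) : V) := fun v => rfl
  have hinj : Function.Injective Ψ := by
    rw [injective_iff_map_eq_zero]
    intro v hv
    funext c
    obtain ⟨s, hs1, hs2⟩ := hs c
    have h1 := congrArg (σ.asAlgebraHom s) hv
    rw [hΨ, map_sum, map_zero, Finset.sum_eq_single c] at h1
    · have h2 := hkill c (v c) (v c).2 _ hs2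
      rw [map_sub, map_one, LinearMap.sub_apply, h1, zero_sub] at h2
      have h3 : τ (Quotient.out c) ((v c : VI σ I) : V) = 0 := neg_eq_zero.1 h2
      apply Subtype.ext
      apply hτinj (Quotient.out c)
      rw [h3]
      simp
    · intro d _ hdc
      apply hkill d (v d) (v d).2
      have h2 := (Submodule.mem_iInf _).1 hs1 d
      exact (Submodule.mem_iInf _).1 h2 (Finset.mem_erase.2 ⟨hdc, Finset.mem_univ d⟩)
    · intro h; exact absurd (Finset.mem_univ c) h
  have hstab : ∀ h ∈ St φ I, ∀ v ∈ VI σ I, τ h v ∈ VI σ I := by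
    intro h hh v hv s hs
    have h1 : s = al k φ h (al k φ (h : H)⁻¹ s) := by rw [← al_mul, mul_inv_cancel, al_one]
    rw [h1, ← tau_act φ τ σ hc, hv _ (((St φ I).inv_mem hh s).2 hs), map_zero]
  have hrange : LinearMap.range Ψ = ⨆ h, (VI σ I).map (τ h) := by
    apply le_antisymm
    · rintro _ ⟨v, rfl⟩
      rw [hΨ]
      exact Submodule.sum_mem _ fun c _ => Submodule.mem_iSup_of_mem (Quotient.out c) ⟨v c, (v c).2, rfl⟩
    · apply iSup_le
      intro h
      rintro _ ⟨v, hv, rfl⟩
      obtain ⟨c, hc'⟩ : ∃ c : H ⧸ St φ I, c = QuotientGroup.mk h := ⟨_, rfl⟩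
      have h1 : (Quotient.out c)⁻¹ * h ∈ St φ I := by
        rw [← QuotientGroup.eq, QuotientGroup.out_eq', hc']
      have h2 : τ h v = τ (Quotient.out c) (τ ((Quotient.out c)⁻¹ * h) v) := by
        rw [← Module.End.mul_apply, ← map_mul, mul_inv_cancel_left]
      refine ⟨Pi.single c ⟨_, hstab _ h1 v hv⟩, ?_⟩
      rw [hΨ, Finset.sum_eq_single c]
      · rw [Pi.single_eq_same, h2]
      · intro d _ hdc
        rw [Pi.single_eq_of_ne hdc]
        simp
      · intro h; exact absurd (Finset.mem_univ c) h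
  refine ⟨W, ?_, ?_⟩
  · apply le_antisymm
    · apply iSup_mono
      intro h
      apply Submodule.map_mono
      rw [← hW1]
      intro w hw
      refine Submodule.mem_iSup_of_mem 1 ⟨w, hw, ?_⟩
      rw [OneMemClass.coe_one, map_one]; rfl
    · apply iSup_le
      intro h
      rw [← hW1, Submodule.map_iSup]
      apply iSup_le
      intro g
      refine le_trans (le_of_eq ?_) (le_iSup (fun h => W.map (τ h)) (h * g))
      rw [map_mul, ← Submodule.map_comp]
      rfl
  · have h1 := (LinearEquiv.ofInjective Ψ hinj).finrank_eq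
    rw [Module.finrank_pi_fintype, Finset.sum_const, smul_eq_mul, Finset.card_univ, ← Nat.card_eq_fintype_card, hrange] at h1
    rw [← h1, ← hW2, ← mul_assoc]
    congr 1
    rw [← Subgroup.index_eq_card, mul_comm, Subgroup.card_mul_index]

theorem exists_VI (σ : Representation k Z V) [Nontrivial V] : ∃ I : Ideal (MonoidAlgebra k Z), I.IsMaximal ∧ VI σ I ≠ ⊥ := by
  have hfin : Module.Finite k (MonoidAlgebra k Z) := inferInstance
  have hN : IsNoetherianRing (MonoidAlgebra k Z) := IsNoetherianRing.of_finite k _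
  have hA : IsArtinianRing (MonoidAlgebra k Z) := IsArtinianRing.of_finite k _
  let M1 : Module (MonoidAlgebra k Z) V := Module.compHom V σ.asAlgebraHom.toRingHom
  have hM1 : ∀ (s : MonoidAlgebra k Z) (v : V), s • v = σ.asAlgebraHom s v := fun s v => rfl
  obtain ⟨I, hI⟩ := associatedPrimes.nonempty (MonoidAlgebra k Z) V
  have hIp : I.IsPrime := hI.isPrime
  refine ⟨I, IsArtinianRing.isMaximal_of_isPrime I, ?_⟩
  obtain ⟨-, x, hx⟩ := isAssociatedPrime_iff.1 hI
  intro h
  apply hIp.ne_top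
  have h1 : x ∈ VI σ I := by
    intro s hs
    rw [hx, Submodule.mem_colon_singleton] at hs
    exact hs
  rw [h, Submodule.mem_bot] at h1
  rw [hx, h1, eq_top_iff]
  intro s _
  rw [Submodule.mem_colon_singleton, smul_zero]
  exact Submodule.zero_mem _

end

end Cfsg.Agent.H14.FF
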