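import Mathlib
import Cfsg.Agent.H14.FF4

set_option autoImplicit false

/-! Freeness for an abelian, and then for a nilpotent kernel. -/

namespace Cfsg.Agent.H14.FF

open Module MonoidAlgebra

/-- averaging: fixed points lift -/
theorem avg_quot {k V Z : Type*} [Field k] [AddCommGroup V] [Module k V] [Group Z] [Finite Z] (σ : Representation k Z V)
    (hk : (Nat.card Z : k) ≠ 0) (hC : ∀ v, (∀ z, σ z v = v) → v = 0) (U : Submodule k V) (hU : ∀ z : Z, U ≤ U.comap (σ z)) :
    ∀ v : V ⧸ U, (∀ z, σ.quotient U hU z v = v) → v = 0 := by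
  classical
  let i1 : Fintype Z := Fintype.ofFinite Z
  have hsum0 : ∀ w : V, ∑ y : Z, σ y w = 0 := by
    intro w
    apply hC
    intro z
    rw [map_sum]
    apply Fintype.sum_equiv (Equiv.mulLeft z)
    intro y
    rw [← Module.End.mul_apply, ← map_mul]
    rfl
  intro v hv
  obtain ⟨w, rfl⟩ := U.mkQ_surjective v
  have h1 : U.mkQ (∑ y : Z, σ y w) = (Nat.card Z : k) • U.mkQ w := by
    rw [map_sum]
    have h2 : ∀ y : Z, U.mkQ (σ y w) = U.mkQ w := fun y => hv y
    simp only [h2]
    rw [Finset.sum_const, Finset.card_univ, ← Nat.card_eq_fintype_card, ← Nat.cast_smul_eq_nsmul k]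
  rw [hsum0, map_zero] at h1
  exact (smul_eq_zero.1 h1.symm).resolve_left hk

theorem PU_abelian (n : ℕ) : ∀ {k V Z H : Type*} [Field k] [AddCommGroup V] [Module k V] [FiniteDimensional k V] [CommGroup Z] [Finite Z] [Group H] [Finite H]
    (τ : Representation k H V) (σ : Representation k Z V) (φ : H →* MulAut Z), finrank k V ≤ n → 
    (∀ h z v, τ h (σ z v) = σ (φ h z) (τ h v)) → (∀ h, h ≠ 1 → ∀ z, φ h z = z → z = 1) →
    (Nat.card Z : k) ≠ 0 → (∀ v, (∀ z, σ z v = v) → v = 0) → PU τ ⊤ := by
  induction n with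
  | zero =>
    intro k V Z H _ _ _ _ _ _ _ _ τ σ φ hn hc hfpf hk hC
    have h1 : finrank k V = 0 := by omega
    have h2 : Subsingleton V := finrank_zero_iff.1 h1
    refine ⟨⊥, ?_, ?_⟩
    · exact Subsingleton.elim _ _
    · rw [finrank_bot, finrank_top, h1, mul_zero]
  | succ n ih =>
    intro k V Z H _ _ _ _ _ _ _ _ τ σ φ hn hc hfpf hk hC
    rcases subsingleton_or_nontrivial V with h2 | h2
    · have h1 : finrank k V = 0 := finrank_zero_iff.2 h2
      refine ⟨⊥, ?_, ?_⟩
      · exact Subsingleton.elim _ _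
      · rw [finrank_bot, finrank_top, h1, mul_zero]
    · obtain ⟨I, hI, hne⟩ := exists_VI σ
      obtain ⟨W, hW1, hW2⟩ := free_stab τ σ φ hc hfpf hk hC I hI hne
      have h3 := free_orbit τ σ φ hc I hI ⟨W, hW1, hW2⟩
      obtain ⟨U, hU⟩ : ∃ U : Submodule k V, U = ⨆ h, (VI σ I).map (τ h) := ⟨_, rfl⟩
      rw [← hU] at h3
      have hUτ : ∀ h : H, U ≤ U.comap (τ h) := by
        intro h
        rw [← Submodule.map_le_iff_le_comap, hU, Submodule.map_iSup]
        apply iSup_le
        intro g
        refine le_trans (le_of_eq ?_) (le_iSup (fun h => (VI σ I).map (τ h)) (h * g))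
        rw [map_mul, ← Submodule.map_comp]
        rfl
      have hUσ : ∀ z : Z, U ≤ U.comap (σ z) := by
        intro z
        rw [← Submodule.map_le_iff_le_comap, hU, Submodule.map_iSup]
        apply iSup_mono
        intro g
        rintro _ ⟨_, ⟨v, hv, rfl⟩, rfl⟩
        refine ⟨σ (φ g⁻¹ z) v, ?_, ?_⟩
        · intro s hs
          have h5 : σ.asAlgebraHom s (σ (φ g⁻¹ z) v) = σ (φ g⁻¹ z) (σ.asAlgebraHom s v) := by
            rw [← Representation.asAlgebraHom_of, ← Module.End.mul_apply, ← map_mul, mul_comm, map_mul, Module.End.mul_apply]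
          rw [h5, hv s hs, map_zero]
        · rw [hc, ← MulAut.mul_apply, ← map_mul, mul_inv_cancel, map_one, MulAut.one_apply]
      have hUne : U ≠ ⊥ := by
        intro h4
        apply hne
        rw [eq_bot_iff, ← h4, hU]
        refine le_trans (le_of_eq ?_) (le_iSup (fun h => (VI σ I).map (τ h)) 1)
        beta_reduce
        rw [map_one]
        exact (Submodule.map_id _).symm
      refine PU_ext τ U hUτ h3 ?_
      apply ih (τ.quotient U hUτ) (σ.quotient U hUσ) φ
      · have h6 := Submodule.finrank_quotient_add_finrank U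
        have h7 : 0 < finrank k U := by
          rw [Nat.pos_iff_ne_zero]
          intro h8
          exact hUne (Submodule.finrank_eq_zero.1 h8)
        omega
      · intro h z v
        obtain ⟨v, rfl⟩ := U.mkQ_surjective v
        change U.mkQ (τ h (σ z v)) = U.mkQ (σ (φ h z) (τ h v))
        rw [hc]
      · exact hfpf
      · exact hk
      · exact avg_quot σ hk hC U hUσ

end Cfsg.Agent.H14.FF
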