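import Mathlib
import Cfsg.Agent.H14.FF5

set_option autoImplicit false

/-! Freeness for a nilpotent kernel. -/

namespace Cfsg.Agent.H14.FF

open Module MonoidAlgebra

theorem PU_sub {k V H : Type*} [Field k] [AddCommGroup V] [Module k V] [Group H] [Finite H] (τ : Representation k H V)
    (U : Submodule k V) (hU : ∀ h : H, U ≤ U.comap (τ h)) (h : PU (τ.subrepresentation U hU) ⊤) : PU τ U := by
  obtain ⟨W₁, hW₁, hd⟩ := h
  refine ⟨W₁.map U.subtype, ?_, ?_⟩
  · have h1 : ∀ h : H, (W₁.map U.subtype).map (τ h) = (W₁.map (τ.subrepresentation U hU h)).map U.subtype := by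
      intro h
      rw [← Submodule.map_comp, ← Submodule.map_comp]
      rfl
    simp only [h1]
    rw [← Submodule.map_iSup, hW₁, Submodule.map_top, Submodule.range_subtype]
  · have h1 := (Submodule.equivMapOfInjective U.subtype U.injective_subtype W₁).finrank_eq
    rw [← h1, hd, finrank_top]

/-- averaging: fixed points lift -/
theorem avg_quot' {k V Z : Type*} [Field k] [AddCommGroup V] [Module k V] [Group Z] [Finite Z] (σ : Representation k Z V)
    (hk : (Nat.card Z : k) ≠ 0) (U : Submodule k V) (hUC : ∀ v, (∀ z, σ z v = v) → v ∈ U) (hU : ∀ z : Z, U ≤ U.comap (σ z)) :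
    ∀ v : V ⧸ U, (∀ z, σ.quotient U hU z v = v) → v = 0 := by
  classical
  let i1 : Fintype Z := Fintype.ofFinite Z
  have hsum0 : ∀ w : V, ∑ y : Z, σ y w ∈ U := by
    intro w
    apply hUC
    intro z
    rw [map_sum]
    apply Fintype.sum_equiv (Equiv.mulLeft z)
    intro y
    rw [← Module.End.mul_apply, ← map_mul]
    rfl
  intro v hv
  obtain ⟨w, rfl⟩ := U.mkQ_surjective v
  have h1 : U.mkQ (∑ y : Z, σ y w) = (Nat.card Z : k) • U.mkQ w := by
    rw [map_sum]
    have h2 : ∀ y : Z, U.mkQ (σ y w) = U.mkQ w := fun y => hv y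
    simp only [h2]
    rw [Finset.sum_const, Finset.card_univ, ← Nat.card_eq_fintype_card, ← Nat.cast_smul_eq_nsmul k]
  have h3 : U.mkQ (∑ y : Z, σ y w) = 0 := (Submodule.Quotient.mk_eq_zero U).2 (hsum0 w)
  rw [h3] at h1
  exact (smul_eq_zero.1 h1.symm).resolve_left hk

/-- the action on the centre -/
def phC {F H : Type*} [Group F] [Group H] (φ : H →* MulAut F) : H →* MulAut (Subgroup.center F) where
  toFun h := Subgroup.centerCongr (φ h)
  map_one' := by ext z; rw [map_one]; rfl
  map_mul' a b := by ext z; rw [map_mul]; rfl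

theorem phC_coe {F H : Type*} [Group F] [Group H] (φ : H →* MulAut F) (h : H) (z : Subgroup.center F) :
    ((phC φ h z : Subgroup.center F) : F) = φ h z := rfl

theorem map_center_aut {F : Type*} [Group F] (e : MulAut F) : (Subgroup.center F).map (e : F →* F) = Subgroup.center F := by
  ext x
  constructor
  · rintro ⟨z, hz, rfl⟩
    exact (Subgroup.centerCongr e ⟨z, hz⟩).2
  · intro hx
    exact ⟨e.symm x, (Subgroup.centerCongr e.symm ⟨x, hx⟩).2, e.apply_symm_apply x⟩

/-- the action on the central quotient -/
noncomputable def phQ {F H : Type*} [Group F] [Group H] (φ : H →* MulAut F) : H →* MulAut (F ⧸ Subgroup.center F) where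
  toFun h := QuotientGroup.congr _ _ (φ h) (map_center_aut (φ h))
  map_one' := by
    apply MulEquiv.ext
    intro f
    obtain ⟨f, rfl⟩ := QuotientGroup.mk_surjective f
    rw [QuotientGroup.congr_mk, map_one]; rfl
  map_mul' a b := by
    apply MulEquiv.ext
    intro f
    obtain ⟨f, rfl⟩ := QuotientGroup.mk_surjective f
    rw [QuotientGroup.congr_mk, map_mul]; rfl

theorem phQ_mk {F H : Type*} [Group F] [Group H] (φ : H →* MulAut F) (h : H) (f : F) :
    phQ φ h (QuotientGroup.mk f) = QuotientGroup.mk (φ h f) := rfl

theorem phQ_fpf {F H : Type*} [Group F] [Finite F] [Group H] (φ : H →* MulAut F) (hfpf : ∀ h, h ≠ 1 → ∀ z, φ h z = z → z = 1) :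
    ∀ h, h ≠ 1 → ∀ z, phQ φ h z = z → z = 1 := by
  intro h hh f hf
  obtain ⟨f, rfl⟩ := QuotientGroup.mk_surjective f
  rw [phQ_mk, eq_comm, QuotientGroup.eq] at hf
  have hinj : ∀ a b : F, a⁻¹ * φ h a = b⁻¹ * φ h b → a = b := by
    intro a b hab
    have h1 : φ h (b * a⁻¹) = b * a⁻¹ := by
      rw [map_mul, map_inv, mul_inv_eq_iff_eq_mul]
      calc φ h b = b * (b⁻¹ * φ h b) := by group
        _ = b * (a⁻¹ * φ h a) := by rw [hab]
        _ = b * a⁻¹ * φ h a := by group
    exact (mul_inv_eq_one.1 (hfpf h hh _ h1)).symm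
  have hbij : Function.Bijective (fun z : Subgroup.center F => z⁻¹ * phC φ h z) := by
    rw [Finite.injective_iff_bijective.symm]
    intro z w hzw
    apply Subtype.ext
    apply hinj
    have h2 := congrArg (fun z : Subgroup.center F => (z : F)) hzw
    exact h2
  obtain ⟨z, hz⟩ := hbij.surjective ⟨f⁻¹ * φ h f, hf⟩
  have h2 : (z : F)⁻¹ * φ h z = f⁻¹ * φ h f := congrArg (fun z : Subgroup.center F => (z : F)) hz
  rw [← hinj _ _ h2]
  exact (QuotientGroup.eq_one_iff _).2 z.2

theorem PU_nilp (n : ℕ) : ∀ {k V F H : Type*} [Field k] [AddCommGroup V] [Module k V] [FiniteDimensional k V] [Group F] [Finite F] [Group.IsNilpotent F]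
    [Group H] [Finite H]
    (τ : Representation k H V) (σ : Representation k F V) (φ : H →* MulAut F), Nat.card F ≤ n → 
    (∀ h z v, τ h (σ z v) = σ (φ h z) (τ h v)) → (∀ h, h ≠ 1 → ∀ z, φ h z = z → z = 1) →
    (Nat.card F : k) ≠ 0 → (∀ v, (∀ z, σ z v = v) → v = 0) → PU τ ⊤ := by
  induction n with
  | zero =>
    intro k V F H _ _ _ _ _ _ _ _ _ τ σ φ hn hc hfpf hk hC
    have := Nat.card_pos (α := F)
    omega
  | succ n ih =>
    intro k V F H _ _ _ _ _ _ _ _ _ τ σ φ hn hc hfpf hk hC
    rcases subsingleton_or_nontrivial F with h2 | h2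
    · have h0 : Subsingleton V := ⟨fun a b => by
        have h3 : ∀ v : V, v = 0 := fun v => hC v fun z => by rw [Subsingleton.elim z 1, map_one]; rfl
        rw [h3 a, h3 b]⟩
      have h1 : finrank k V = 0 := finrank_zero_iff.2 h0
      refine ⟨⊥, ?_, ?_⟩
      · exact Subsingleton.elim _ _
      · rw [finrank_bot, finrank_top, h1, mul_zero]
    · have hZ : Nontrivial (Subgroup.center F) := by
        rw [Subgroup.nontrivial_iff_ne_bot]
        intro hcon
        have h3 : ∀ m, Subgroup.upperCentralSeries F m = ⊥ := by
          intro m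
          induction m with
          | zero => exact Subgroup.upperCentralSeries_zero F
          | succ m ihm =>
            rw [eq_bot_iff]
            intro x hx
            rw [Subgroup.mem_upperCentralSeries_succ_iff, ihm] at hx
            rw [← hcon, Subgroup.mem_center_iff]
            intro y
            have := hx y
            rw [Subgroup.mem_bot, commutatorElement_eq_one_iff_mul_comm] at this
            exact this.symm
        obtain ⟨m, hm⟩ := Group.IsNilpotent.nilpotent F
        rw [h3 m] at hm
        exact bot_ne_top hm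
      have hcard := Subgroup.card_eq_card_quotient_mul_card_subgroup (Subgroup.center F)
      have hkZ : (Nat.card (Subgroup.center F) : k) ≠ 0 := by
        intro h; apply hk; rw [hcard, Nat.cast_mul, h, mul_zero]
      have hkQ : (Nat.card (F ⧸ Subgroup.center F) : k) ≠ 0 := by
        intro h; apply hk; rw [hcard, Nat.cast_mul, h, zero_mul]
      let U : Submodule k V :=
        { carrier := {v | ∀ z ∈ Subgroup.center F, σ z v = v}
          add_mem' := fun {a b} ha hb z hz => by rw [map_add, ha z hz, hb z hz]
          zero_mem' := fun z _ => map_zero _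
          smul_mem' := fun c {x} hx z hz => by rw [map_smul, hx z hz] }
      have hUm : ∀ v, v ∈ U ↔ ∀ z ∈ Subgroup.center F, σ z v = v := fun v => Iff.rfl
      have hUσ : ∀ f : F, U ≤ U.comap (σ f) := by
        intro f v hv z hz
        rw [← Module.End.mul_apply, ← map_mul, ← (Subgroup.mem_center_iff.1 hz f), map_mul, Module.End.mul_apply, hv z hz]
      have hUτ : ∀ h : H, U ≤ U.comap (τ h) := by
        intro h v hv z hz
        have h3 : z = φ h ((φ h).symm z) := ((φ h).apply_symm_apply z).symm
        have h5 := hv _ (Subgroup.centerCongr (φ h).symm ⟨z, hz⟩).2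
        rw [h3, ← hc]
        exact congrArg (τ h) h5
      refine PU_ext τ U hUτ (PU_sub τ U hUτ ?_) ?_
      · -- the quotient acts on `U`
        let σQ : Representation k (F ⧸ Subgroup.center F) U :=
          QuotientGroup.lift (Subgroup.center F) (σ.subrepresentation U hUσ) (fun z hz => by
            ext v
            exact v.2 z hz)
        have hσQ : ∀ (f : F) (v : U), ((σQ (QuotientGroup.mk f) v : U) : V) = σ f v := fun f v => rfl
        apply ih (τ.subrepresentation U hUτ) σQ (phQ φ)
        · have h3 : 1 < Nat.card (Subgroup.center F) := Finite.one_lt_card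
          have h4 : 0 < Nat.card (F ⧸ Subgroup.center F) := Nat.card_pos
          nlinarith
        · intro h z v
          obtain ⟨f, rfl⟩ := QuotientGroup.mk_surjective z
          apply Subtype.ext
          exact hc h f v
        · exact phQ_fpf φ hfpf
        · exact hkQ
        · intro v hv
          apply Subtype.ext
          apply hC
          intro f
          exact congrArg (fun u : U => (u : V)) (hv (QuotientGroup.mk f))
      · let iZ : CommGroup (Subgroup.center F) :=
          { (inferInstance : Group (Subgroup.center F)) with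
            mul_comm := fun a b => Subtype.ext (Subgroup.mem_center_iff.1 b.2 a) }
        let σZ : Representation k (Subgroup.center F) V := σ.comp (Subgroup.center F).subtype
        have hUσZ : ∀ z : Subgroup.center F, U ≤ U.comap (σZ z) := fun z => hUσ z
        apply PU_abelian (Z := Subgroup.center F) (finrank k (V ⧸ U)) (τ.quotient U hUτ) (σZ.quotient U hUσZ) (phC φ) le_rfl
        · intro h z v
          obtain ⟨v, rfl⟩ := U.mkQ_surjective v
          change U.mkQ (τ h (σ z v)) = U.mkQ (σ (φ h z) (τ h v))
          rw [hc]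
        · intro h hh z hz
          apply Subtype.ext
          apply hfpf h hh
          exact congrArg (fun z : Subgroup.center F => (z : F)) hz
        · exact hkZ
        · exact avg_quot' σZ hkZ U (fun v hv z hz => hv ⟨z, hz⟩) hUσZ

end Cfsg.Agent.H14.FF
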