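import Mathlib
import Cfsg.Agent.H14.FF6
import Cfsg.Agent.H95.CarterSys

set_option autoImplicit false

/-! Freeness over the complement: arbitrary characteristic. -/

namespace Cfsg.Agent.H14.FF

open Module MonoidAlgebra

theorem fixed_p {k V P : Type*} [Field k] {p : ℕ} [hp : Fact p.Prime] [CharP k p] [AddCommGroup V] [Module k V] [Group P] [Finite P]
    (hP : IsPGroup p P) (ρ : Representation k P V) (hfix : ∀ v, (∀ g, ρ g v = v) → v = 0) (v : V) : v = 0 := by
  by_contra hv
  let i0 : Fintype P := Fintype.ofFinite P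
  obtain ⟨M, hM⟩ : ∃ M : Submodule ℤ V, M = Submodule.span ℤ (Set.range fun g : P => ρ g v) := ⟨_, rfl⟩
  have hpx : ∀ x : V, p • x = 0 := fun x => by
    rw [← Nat.cast_smul_eq_nsmul k, CharP.cast_eq_zero, zero_smul]
  have h1 : Module.Finite ℤ M := by
    rw [hM]
    exact Module.Finite.span_of_finite ℤ (Set.finite_range _)
  have h2 : Finite M := by
    apply Module.finite_of_fg_torsion
    intro x
    refine ⟨⟨(p : ℤ), by
      rw [mem_nonZeroDivisors_iff_ne_zero]; exact_mod_cast hp.1.ne_zero⟩, ?_⟩
    apply Subtype.ext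
    change (p : ℤ) • (x : V) = 0
    rw [natCast_zsmul]
    exact hpx x
  have hinv : ∀ g : P, ∀ x ∈ M, ρ g x ∈ M := by
    intro g x hx
    rw [hM] at hx ⊢
    induction hx using Submodule.span_induction with
    | mem x hx =>
      obtain ⟨h, rfl⟩ := hx
      apply Submodule.subset_span
      refine ⟨g * h, ?_⟩
      beta_reduce
      rw [map_mul]; rfl
    | zero => rw [map_zero]; exact Submodule.zero_mem _
    | add x y _ _ hx hy => rw [map_add]; exact Submodule.add_mem _ hx hy
    | smul a x _ hx =>
      rw [map_zsmul]; exact Submodule.smul_mem _ _ hx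
  let A : MulAction P M :=
    { smul := fun g x => ⟨ρ g x, hinv g x x.2⟩
      one_smul := fun x => Subtype.ext (by change ρ 1 (x : V) = x; rw [map_one]; rfl)
      mul_smul := fun g h x => Subtype.ext (by change ρ (g * h) (x : V) = ρ g (ρ h x); rw [map_mul]; rfl) }
  have hA : ∀ (g : P) (x : M), ((g • x : M) : V) = ρ g x := fun g x => rfl
  have hvM : v ∈ M := by
    rw [hM]; apply Submodule.subset_span
    exact ⟨1, by beta_reduce; rw [map_one]; rfl⟩
  have hdvd : p ∣ Nat.card M := by
    have h3 : addOrderOf (⟨v, hvM⟩ : M) = p := by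
      apply addOrderOf_eq_prime
      · apply Subtype.ext
        exact hpx v
      · intro h; exact hv (congrArg (fun x : M => (x : V)) h)
    rw [← h3]
    exact addOrderOf_dvd_natCard _
  obtain ⟨b, hb, hb0⟩ := hP.exists_fixed_point_of_prime_dvd_card_of_fixed_point M hdvd (a := 0) (fun g => Subtype.ext (map_zero (ρ g)))
  apply hb0
  apply Subtype.ext
  symm
  apply hfix
  intro g
  exact congrArg (fun x : M => (x : V)) (hb g)

/-- the restriction of an action to an invariant subgroup -/
def phS {F H : Type*} [Group F] [Group H] (φ : H →* MulAut F) (K : Subgroup F) (hK : ∀ h, ∀ z ∈ K, φ h z ∈ K) : H →* MulAut K where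
  toFun h :=
    { toFun := fun z => ⟨φ h z, hK h z z.2⟩
      invFun := fun z => ⟨φ h⁻¹ z, hK h⁻¹ z z.2⟩
      left_inv := fun z => Subtype.ext (by
        change φ h⁻¹ (φ h z) = z
        rw [← MulAut.mul_apply, ← map_mul, inv_mul_cancel, map_one]; rfl)
      right_inv := fun z => Subtype.ext (by
        change φ h (φ h⁻¹ z) = z
        rw [← MulAut.mul_apply, ← map_mul, mul_inv_cancel, map_one]; rfl)
      map_mul' := fun z w => Subtype.ext (map_mul (φ h) _ _) }
  map_one' := by
    apply MulEquiv.ext
    intro z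
    apply Subtype.ext
    change φ 1 (z : F) = z
    rw [map_one]; rfl
  map_mul' a b := by
    apply MulEquiv.ext
    intro z
    apply Subtype.ext
    change φ (a * b) (z : F) = φ a (φ b z)
    rw [map_mul]; rfl

theorem phS_coe {F H : Type*} [Group F] [Group H] (φ : H →* MulAut F) (K : Subgroup F) (hK : ∀ h, ∀ z ∈ K, φ h z ∈ K) (h : H) (z : K) :
    ((phS φ K hK h z : K) : F) = φ h z := rfl

theorem PU_general {k V F H : Type*} [Field k] [AddCommGroup V] [Module k V] [FiniteDimensional k V] [Group F] [Finite F] [Group.IsNilpotent F]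
    [Group H] [Finite H]
    (τ : Representation k H V) (σ : Representation k F V) (φ : H →* MulAut F)
    (hc : ∀ h z v, τ h (σ z v) = σ (φ h z) (τ h v)) (hfpf : ∀ h, h ≠ 1 → ∀ z, φ h z = z → z = 1)
    (hC : ∀ v, (∀ z, σ z v = v) → v = 0) : PU τ ⊤ := by
  obtain ⟨p, hp⟩ := CharP.exists k
  rcases CharP.char_is_prime_or_zero k p with hpp | rfl
  · have hpf : Fact p.Prime := ⟨hpp⟩
    obtain ⟨K, hK⟩ : ∃ K : Subgroup F, K = Cfsg.pPrimeCore p F := ⟨_, rfl⟩
    have hKc : K.Characteristic := by rw [hK]; infer_instance
    obtain ⟨m, hm⟩ := H95.pPrimeCore_index_of_nilpotent (N := F) hpp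
    rw [← hK] at hm
    have hcop : (Nat.card K).Coprime p := by rw [hK]; exact Solv.pPrimeCore_card_coprime p
    have hKn : K.Normal := inferInstance
    have hKinv : ∀ h, ∀ z ∈ K, φ h z ∈ K := by
      intro h z hz
      have h1 := Subgroup.characteristic_iff_map_eq.1 hKc (φ h)
      rw [← h1]
      exact ⟨z, hz, rfl⟩
    apply PU_nilp (Nat.card K) τ (σ.comp K.subtype) (phS φ K hKinv) le_rfl
    · intro h z v
      exact hc h z v
    · intro h hh z hz
      apply Subtype.ext
      apply hfpf h hh
      exact congrArg (fun z : K => (z : F)) hz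
    · intro h0
      rw [CharP.cast_eq_zero_iff k p] at h0
      have h1 : p ∣ 1 := by
        rw [← hcop]; exact Nat.dvd_gcd h0 dvd_rfl
      exact hpp.one_lt.ne' (Nat.dvd_one.1 h1)
    · -- the fixed points of `K`
      let U : Submodule k V :=
        { carrier := {v | ∀ z ∈ K, σ z v = v}
          add_mem' := fun {a b} ha hb z hz => by rw [map_add, ha z hz, hb z hz]
          zero_mem' := fun z _ => map_zero _
          smul_mem' := fun c {x} hx z hz => by rw [map_smul, hx z hz] }
      have hUσ : ∀ f : F, U ≤ U.comap (σ f) := by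
        intro f v hv z hz
        have h1 : z * f = f * (f⁻¹ * z * f) := by group
        rw [← Module.End.mul_apply, ← map_mul, h1, map_mul, Module.End.mul_apply]
        have h2 : f⁻¹ * z * f ∈ K := by
          have := hKn.conj_mem z hz f⁻¹
          rwa [inv_inv] at this
        exact congrArg (σ f) (hv _ h2)
      let σQ : Representation k (F ⧸ K) U :=
          QuotientGroup.lift K (σ.subrepresentation U hUσ) (fun z hz => by
            ext v
            exact v.2 z hz)
      have hP : IsPGroup p (F ⧸ K) := by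
        apply IsPGroup.of_card (n := m)
        rw [← hm]; rfl
      intro v hv
      have hvU : v ∈ U := fun z hz => hv ⟨z, hz⟩
      have h3 := fixed_p hP σQ (fun u hu => by
        apply Subtype.ext
        apply hC
        intro f
        exact congrArg (fun u : U => (u : V)) (hu (QuotientGroup.mk f))) ⟨v, hvU⟩
      exact congrArg (fun u : U => (u : V)) h3
  · have h0 : CharZero k := CharP.charP_to_charZero k
    apply PU_nilp (Nat.card F) τ σ φ le_rfl hc hfpf _ hC
    exact_mod_cast Nat.card_pos.ne'

end Cfsg.Agent.H14.FF
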