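import Mathlib

set_option autoImplicit false

/-! S5769, piece W1 (`weyl`). -/

namespace Cfsg.Agent.H14.W1a

open Matrix Polynomial

lemma dinv {l : ℕ} {C M : Matrix (Fin l) (Fin l) ℤ} (h : Mᵀ * C * M = C) (x y : Fin l → ℤ) :
    (M *ᵥ x) ⬝ᵥ (C *ᵥ (M *ᵥ y)) = x ⬝ᵥ (C *ᵥ y) := by
  have h1 : (M *ᵥ x) ⬝ᵥ (C *ᵥ (M *ᵥ y)) = x ⬝ᵥ (Mᵀ *ᵥ (C *ᵥ (M *ᵥ y))) := by
    rw [Matrix.dotProduct_mulVec x, Matrix.vecMul_transpose]
  rw [h1, Matrix.mulVec_mulVec, Matrix.mulVec_mulVec, h]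

theorem c4 : cyclotomic 4 ℤ = X ^ 2 + 1 := by
  have h := cyclotomic_prime_pow_eq_geom_sum (R := ℤ) (p := 2) (n := 1) Nat.prime_two
  rw [show (2 : ℕ) ^ (1 + 1) = 4 by norm_num] at h
  rw [h, Finset.sum_range_succ, Finset.sum_range_one, pow_zero, pow_one, pow_one, add_comm]

theorem c12 : cyclotomic 12 ℤ = X ^ 4 - X ^ 2 + 1 := by
  have h := cyclotomic_expand_eq_cyclotomic (p := 2) (n := 6) Nat.prime_two (by norm_num) ℤ
  rw [show 6 * 2 = 12 by norm_num, cyclotomic_six] at h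
  rw [← h, map_add, map_sub, map_pow, map_one, expand_X, ← pow_mul]

theorem charp {M : Matrix (Fin 7) (Fin 7) ℤ} (hdet : M.det = 1 ∨ M.det = -1)
    (h12 : cyclotomic 12 ℤ ∣ M.charpoly) (h4 : cyclotomic 4 ℤ ∣ M.charpoly) :
    ∃ e : ℤ, (e = 1 ∨ e = -1) ∧ M.charpoly = (X ^ 6 + 1) * (X - C e) := by
  obtain ⟨q, hq⟩ := h12
  have hp4 : Prime (cyclotomic 4 ℤ) := (cyclotomic.irreducible (by norm_num)).prime
  have hnd : ¬ cyclotomic 4 ℤ ∣ cyclotomic 12 ℤ := by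
    intro h
    have h1 := (hp4.irreducible.associated_of_dvd (cyclotomic.irreducible (by norm_num)) h)
    have h2 := natDegree_eq_of_degree_eq (degree_eq_degree_of_associated h1)
    rw [natDegree_cyclotomic, natDegree_cyclotomic] at h2
    revert h2
    decide
  rw [hq] at h4
  rcases hp4.dvd_or_dvd h4 with h | h
  · exact absurd h hnd
  obtain ⟨r, rfl⟩ := h
  have hmon := M.charpoly_monic
  have hdeg := M.charpoly_natDegree_eq_dim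
  rw [Fintype.card_fin] at hdeg
  rw [hq] at hmon hdeg
  have hr1 : (cyclotomic 4 ℤ * r).Monic := (cyclotomic.monic 12 ℤ).of_mul_monic_left hmon
  have hr : r.Monic := (cyclotomic.monic 4 ℤ).of_mul_monic_left hr1
  have hrd : r.natDegree = 1 := by
    rw [(cyclotomic.monic 12 ℤ).natDegree_mul hr1, (cyclotomic.monic 4 ℤ).natDegree_mul hr, natDegree_cyclotomic,
      natDegree_cyclotomic] at hdeg
    have h1 : Nat.totient 12 = 4 := by decide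
    have h2 : Nat.totient 4 = 2 := by decide
    omega
  have hrX : r = X - C (-(r.coeff 0)) := by
    have h1 := eq_X_add_C_of_natDegree_le_one hrd.le
    have h2 : r.coeff 1 = 1 := by
      have := hr.coeff_natDegree
      rwa [hrd] at this
    rw [h2, map_one, one_mul] at h1
    rw [map_neg, sub_neg_eq_add]
    exact h1
  obtain ⟨e, he⟩ : ∃ e, e = -(r.coeff 0) := ⟨_, rfl⟩
  rw [← he] at hrX
  have hch : M.charpoly = (X ^ 6 + 1) * (X - C e) := by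
    rw [hq, hrX, c12, c4]; ring
  refine ⟨e, ?_, hch⟩
  have hd := M.det_eq_sign_charpoly_coeff
  rw [hch, Fintype.card_fin] at hd
  have h0 : ((X ^ 6 + 1) * (X - C e) : ℤ[X]).coeff 0 = -e := by
    rw [coeff_zero_eq_eval_zero]; simp
  rw [h0] at hd
  have : M.det = e := by rw [hd]; ring
  rw [← this]; exact hdet

theorem eig1 {CC M : Matrix (Fin 7) (Fin 7) ℤ} {e : ℤ} (he : e = 1 ∨ e = -1)
    (hM : M.charpoly = (X ^ 6 + 1) * (X - C e)) {δ β : Fin 7 → ℤ} (hβ2 : β ⬝ᵥ (CC *ᵥ β) = 2)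
    (hδ : M *ᵥ δ = e • δ) (hβ : M *ᵥ β = e • β) (horth : δ ⬝ᵥ (CC *ᵥ β) = 0) : δ = 0 := by
  classical
  let f := Int.castRingHom ℚ
  let Mq : Matrix (Fin 7) (Fin 7) ℚ := M.map f
  let φ : Module.End ℚ (Fin 7 → ℚ) := Matrix.toLin' Mq
  have hch : φ.charpoly = (X ^ 6 + 1) * (X - C (e : ℚ)) := by
    show (Matrix.toLin' (M.map f)).charpoly = _
    rw [Matrix.charpoly_toLin', Matrix.charpoly_map, hM]
    simp [f]
  have hmult : φ.charpoly.rootMultiplicity (e : ℚ) = 1 := by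
    rw [hch, rootMultiplicity_mul, rootMultiplicity_X_sub_C_self, rootMultiplicity_eq_zero]
    · rcases he with rfl | rfl <;> simp [IsRoot] <;> norm_num
    · rw [← hch]; exact (LinearMap.charpoly_monic φ).ne_zero
  have hfr := LinearMap.finrank_maxGenEigenspace_eq φ (e : ℚ)
  rw [hmult] at hfr
  have hcast : ∀ x : Fin 7 → ℤ, M *ᵥ x = e • x → Mq *ᵥ (fun i => (x i : ℚ)) = (e : ℚ) • (fun i => (x i : ℚ)) := by
    intro x hx
    funext i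
    have h1 := congrFun hx i
    have h2 : ((M *ᵥ x) i : ℚ) = (Mq *ᵥ (fun i => (x i : ℚ))) i := by
      simp [Matrix.mulVec, dotProduct, Mq, f]
    rw [← h2, h1]
    simp
  have hmem : ∀ x : Fin 7 → ℤ, M *ᵥ x = e • x → (fun i => (x i : ℚ)) ∈ φ.maxGenEigenspace (e : ℚ) := by
    intro x hx
    rw [Module.End.mem_maxGenEigenspace]
    refine ⟨1, ?_⟩
    rw [pow_one, LinearMap.sub_apply, LinearMap.smul_apply, Module.End.one_apply, sub_eq_zero]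
    exact hcast x hx
  have hβ0 : β ≠ 0 := by
    rintro rfl
    rw [zero_dotProduct] at hβ2
    norm_num at hβ2
  have hβq : (⟨fun i => (β i : ℚ), hmem β hβ⟩ : φ.maxGenEigenspace (e : ℚ)) ≠ 0 := by
    intro h
    apply hβ0
    funext i
    have h9 : (β i : ℚ) = 0 := congrFun (congrArg Subtype.val h) i
    exact_mod_cast h9
  obtain ⟨c, hc⟩ := (finrank_eq_one_iff_of_nonzero' _ hβq).1 hfr ⟨fun i => (δ i : ℚ), hmem δ hδ⟩
  have hc' : ∀ i, (δ i : ℚ) = c * β i := fun i => (congrFun (congrArg Subtype.val hc) i).symm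
  have hlin : ((δ ⬝ᵥ (CC *ᵥ β) : ℤ) : ℚ) = c * ((β ⬝ᵥ (CC *ᵥ β) : ℤ) : ℚ) := by
    simp only [dotProduct, Int.cast_sum, Int.cast_mul, Finset.mul_sum]
    refine Finset.sum_congr rfl fun i _ => ?_
    rw [hc' i]; ring
  rw [horth, hβ2] at hlin
  have hc0 : c = 0 := by
    push_cast at hlin
    linarith
  funext i
  have := hc' i
  rw [hc0, zero_mul] at this
  exact_mod_cast this

theorem lat {CC M : Matrix (Fin 7) (Fin 7) ℤ} (hCs : CCᵀ = CC) (hC : Mᵀ * CC * M = CC) {e : ℤ} (he : e = 1 ∨ e = -1)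
    (hM : M.charpoly = (X ^ 6 + 1) * (X - C e)) {β γ : Fin 7 → ℤ} (hβ2 : β ⬝ᵥ (CC *ᵥ β) = 2)
    (hβ : M *ᵥ β = e • β) (hodd : Odd (γ ⬝ᵥ (CC *ᵥ β))) (hγ : M ^ 4 *ᵥ γ = γ) : False := by
  have hB : ∀ x y, (M *ᵥ x) ⬝ᵥ (CC *ᵥ (M *ᵥ y)) = x ⬝ᵥ (CC *ᵥ y) := fun x y => dinv hC x y
  have hsym : ∀ x y : Fin 7 → ℤ, x ⬝ᵥ (CC *ᵥ y) = y ⬝ᵥ (CC *ᵥ x) := by
    intro x y
    rw [Matrix.dotProduct_mulVec, ← Matrix.mulVec_transpose, hCs, dotProduct_comm]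
  have hee : e * e = 1 := by rcases he with rfl | rfl <;> norm_num
  obtain ⟨k, hk⟩ : ∃ k, k = γ ⬝ᵥ (CC *ᵥ β) := ⟨_, rfl⟩
  rw [← hk] at hodd
  -- Cayley-Hamilton
  have hCH : (M ^ 6 + 1) * (M - e • (1 : Matrix (Fin 7) (Fin 7) ℤ)) = 0 := by
    have h := M.aeval_self_charpoly
    rw [hM] at h
    simpa [Algebra.algebraMap_eq_smul_one] using h
  have hcomm : (M ^ 6 + 1) * (M - e • (1 : Matrix (Fin 7) (Fin 7) ℤ)) =
      (M - e • (1 : Matrix (Fin 7) (Fin 7) ℤ)) * (M ^ 6 + 1) := by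
    simp only [add_mul, mul_sub, sub_mul, mul_add, one_mul, mul_one, mul_smul_comm, smul_mul_assoc]
    rw [← pow_succ, ← pow_succ', smul_add]
    abel
  have hpow : ∀ (j : ℕ) (x : Fin 7 → ℤ), M ^ (j + 1) *ᵥ x = M ^ j *ᵥ (M *ᵥ x) := by
    intro j x; rw [pow_succ, ← Matrix.mulVec_mulVec]
  have h6β : M ^ 6 *ᵥ β = β := by
    have h2 : M ^ 2 *ᵥ β = β := by
      rw [hpow 1, pow_one, hβ, Matrix.mulVec_smul, hβ, smul_smul, hee, one_smul]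
    have h3 : ∀ x, M ^ 6 *ᵥ x = M ^ 2 *ᵥ (M ^ 2 *ᵥ (M ^ 2 *ᵥ x)) := by
      intro x
      rw [Matrix.mulVec_mulVec, Matrix.mulVec_mulVec, ← pow_add, ← pow_add]
    rw [h3, h2, h2, h2]
  have h6B : ∀ x y, (M ^ 6 *ᵥ x) ⬝ᵥ (CC *ᵥ (M ^ 6 *ᵥ y)) = x ⬝ᵥ (CC *ᵥ y) := by
    have h : ∀ (j : ℕ) x y, (M ^ j *ᵥ x) ⬝ᵥ (CC *ᵥ (M ^ j *ᵥ y)) = x ⬝ᵥ (CC *ᵥ y) := by
      intro j
      induction j with
      | zero => intro x y; simp
      | succ j ih => intro x y; rw [hpow, hpow, ih, hB]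
    exact h 6
  -- the vector δ
  have hδ0 : M ^ 6 *ᵥ γ + γ - k • β = 0 := by
    refine eig1 he hM hβ2 ?_ hβ ?_
    · have h1 : M *ᵥ (M ^ 6 *ᵥ γ + γ) = e • (M ^ 6 *ᵥ γ + γ) := by
        have h2 : ((M - e • (1 : Matrix (Fin 7) (Fin 7) ℤ)) * (M ^ 6 + 1)) *ᵥ γ = 0 := by
          rw [← hcomm, hCH, Matrix.zero_mulVec]
        rw [← Matrix.mulVec_mulVec, Matrix.add_mulVec, Matrix.one_mulVec, Matrix.sub_mulVec, Matrix.smul_mulVec,
          Matrix.one_mulVec, sub_eq_zero] at h2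
        exact h2
      rw [Matrix.mulVec_sub, h1, Matrix.mulVec_smul, hβ, smul_sub, smul_comm]
    · have h2 : (M ^ 6 *ᵥ γ) ⬝ᵥ (CC *ᵥ β) = k := by
        rw [hk, ← h6B γ β, h6β]
      rw [sub_dotProduct, add_dotProduct, smul_dotProduct, h2, hβ2, ← hk, smul_eq_mul]
      ring
  have h26 : M ^ 6 *ᵥ γ = M ^ 2 *ᵥ γ := by
    rw [show (6 : ℕ) = 2 + 4 by norm_num, pow_add, ← Matrix.mulVec_mulVec, hγ]
  have h2γ : M *ᵥ (M *ᵥ γ) = k • β - γ := by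
    have h3 : M ^ 2 *ᵥ γ = M *ᵥ (M *ᵥ γ) := by rw [hpow 1, pow_one]
    rw [← h3, ← h26]
    calc M ^ 6 *ᵥ γ = (M ^ 6 *ᵥ γ + γ - k • β) + (k • β - γ) := by abel
      _ = k • β - γ := by rw [hδ0, zero_add]
  obtain ⟨c, hc⟩ : ∃ c, c = γ ⬝ᵥ (CC *ᵥ (M *ᵥ γ)) := ⟨_, rfl⟩
  have hMγβ : (M *ᵥ γ) ⬝ᵥ (CC *ᵥ β) = e * k := by
    have h3 : β = e • (M *ᵥ β) := by rw [hβ, smul_smul, hee, one_smul]
    calc (M *ᵥ γ) ⬝ᵥ (CC *ᵥ β) = (M *ᵥ γ) ⬝ᵥ (CC *ᵥ (e • (M *ᵥ β))) := by rw [← h3]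
      _ = e * k := by rw [Matrix.mulVec_smul, dotProduct_smul, hB, ← hk, smul_eq_mul]
  have h5 : c = k * (e * k) - c := by
    calc c = (M *ᵥ γ) ⬝ᵥ (CC *ᵥ (M *ᵥ (M *ᵥ γ))) := by rw [hB, hc]
      _ = k * (e * k) - c := by
        rw [h2γ, Matrix.mulVec_sub, dotProduct_sub, Matrix.mulVec_smul, dotProduct_smul, hMγβ, hsym (M *ᵥ γ) γ, ← hc,
          smul_eq_mul]
  obtain ⟨j, hj⟩ := hodd
  have h6 : 2 * c = e * (k * k) := by linear_combination h5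
  rw [hj] at h6
  rcases he with rfl | rfl
  · have : 2 * c = 2 * (2 * (j * j) + 2 * j) + 1 := by rw [h6]; ring
    omega
  · have : 2 * c = -(2 * (2 * (j * j) + 2 * j) + 1) := by rw [h6]; ring
    omega

end Cfsg.Agent.H14.W1a
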