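import Cfsg.Agent.ChevF.E7W
import Cfsg.Agent.H14.W1a

set_option autoImplicit false

namespace Cfsg.Agent.H14.W1b

open Cfsg.Lie Cfsg.Agent.Chev Cfsg.Agent.ChevGrp Cfsg.Agent.ChevF Matrix Polynomial

/-- (iii) + (iv), the form used in S5769 -/
theorem lattice {M : Matrix (Fin 7) (Fin 7) ℤ} (hM : Mᵀ * CE7 * M = CE7) {e : ℤ} (he : e * e = 1)
    (hch : M.charpoly = (X ^ 6 + 1) * (X - C e)) {β γ : Fin 7 → ℤ} (hβ : M *ᵥ β = e • β)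
    (hββ : β ⬝ᵥ (CE7 *ᵥ β) = 2) (hγγ : γ ⬝ᵥ (CE7 *ᵥ γ) = 2) (hγβ : γ ⬝ᵥ (CE7 *ᵥ β) = 1)
    (h4 : M *ᵥ (M *ᵥ (M *ᵥ (M *ᵥ γ))) = γ) : False := by
  refine W1a.lat CE7_sym hM (Int.isUnit_iff.1 (IsUnit.of_mul_eq_one e he)) hch hββ hβ (by rw [hγβ]; exact odd_one) ?_
  rw [show (4 : ℕ) = 1 + 1 + 1 + 1 by norm_num, pow_succ, pow_succ, pow_succ, pow_one, ← Matrix.mulVec_mulVec,
    ← Matrix.mulVec_mulVec, ← Matrix.mulVec_mulVec]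
  exact h4

end Cfsg.Agent.H14.W1b
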